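import Mathlib
import Cfsg.Agent.Lib.RelMcKay.GoodCount

/-!
# Restriction to a supplement is a bijection of the characters over an extension
-/

set_option autoImplicit false
set_option linter.style.haveILetI false
set_option linter.unusedSectionVars false

open scoped ComplexConjugate Pointwise
open Cfsg CfsgLib.CharTheory

namespace CfsgLib.RelMcKay

noncomputable section

open scoped Classical

variable {G : Type*} [Group G] [Finite G]

/-- An invariant constituent is the only one. -/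
theorem res_eq_mul_of_invariant {K H : Subgroup G} (hKH : K ≤ H)
    (hHK : H ≤ Subgroup.normalizer (K : Set G)) {θ χ : G → ℂ} (hθ : IsIrrOn K θ) (hHθ : H ≤ stab θ)
    (hχ : IsIrrOn H χ) (hm : mu K χ θ ≠ 0) :
    (∀ x ∈ K, χ x = (mu K χ θ : ℂ) * θ x) ∧ ∀ η, IsIrrOn K η → mu K χ η ≠ 0 → η = θ := by
  haveI : (K.subgroupOf H).Normal := (Subgroup.normal_subgroupOf_iff_le_normalizer hKH).2 hHK
  haveI := Fintype.ofFinite H
  haveI := Fintype.ofFinite K
  haveI := Fintype.ofFinite (K.subgroupOf H)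
  let e : K.subgroupOf H ≃* K := Subgroup.subgroupOfEquivOfLe hKH
  have hip : ∀ {ζ : G → ℂ}, IsIrrOn K ζ →
      classInner (fun n : K.subgroupOf H => χ ((n : H) : G)) (fun n => ζ (e n)) = (mu K χ ζ : ℂ) := by
    intro ζ hζ
    rw [← ip_eq_mu (hχ.isCharOn.mono hKH) hζ, ip_eq, ← Clifford.classInner_comp_mulEquiv e]
    rfl
  have hne : classInner (fun n : K.subgroupOf H => χ ((n : H) : G)) (fun n => θ (e n)) ≠ 0 := by
    rw [hip hθ]
    exact_mod_cast hm
  have hinv : ∀ g : H, Clifford.conjChar (K.subgroupOf H) (fun n => θ (e n)) g = fun n => θ (e n) := by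
    intro g
    funext n
    refine Eq.trans ?_ (congrFun (mem_stab.1 (hHθ g.2)) ((e n : K) : G))
    simp [Clifford.conjChar, cj, e, Subgroup.subgroupOfEquivOfLe]
  have hres := Clifford.res_eq_of_invariant (K.subgroupOf H) hχ.1 (isIrrCharacter_comp_mulEquiv hθ.1 e)
    hinv hne
  have heq : ∀ x ∈ K, χ x = (mu K χ θ : ℂ) * θ x := fun x hx => by
    have h := congrFun hres (e.symm ⟨x, hx⟩)
    rw [hip hθ] at h
    simpa [e, Subgroup.subgroupOfEquivOfLe] using h
  refine ⟨heq, fun η hη hη0 => by_contra fun hne' => hη0 ?_⟩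
  have h1 : ip K χ η = (mu K χ θ : ℂ) * ip K θ η := by
    rw [ip_congr (f' := fun x => ∑ i ∈ ({()} : Finset Unit), (mu K χ θ : ℂ) * θ x)
      (fun x hx => by simp [heq x hx]) (fun x _ => rfl), ip_sum_left]
    simp
  rw [ip_eq_mu (hχ.isCharOn.mono hKH) hη, ip_eq_zero hθ hη (Ne.symm hne'), mul_zero] at h1
  exact_mod_cast h1

/-- On a coset, the characters over an invariant character are multiples of one extension. -/
theorem exists_coset_scalar {K H : Subgroup G} (hKH : K ≤ H)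
    (hHK : H ≤ Subgroup.normalizer (K : Set G)) {θ : G → ℂ} (hθ : IsIrrOn K θ) (hHθ : H ≤ stab θ)
    {r : G} (hr : r ∈ H) :
    ∃ ψ, IsIrrOn (K ⊔ Subgroup.zpowers r) ψ ∧ (∀ x ∈ K, ψ x = θ x) ∧
      ∀ χ ∈ overIrr H K θ, ∃ a : ℂ, ∀ k ∈ K, χ (k * r) = a * ψ (k * r) := by
  have hzr : Subgroup.zpowers r ≤ Subgroup.normalizer (K : Set G) := Subgroup.zpowers_le.2 (hHK hr)
  set X := K ⊔ Subgroup.zpowers r
  have hrX : r ∈ X := le_sup_right (a := K) (Subgroup.mem_zpowers r)
  have hXH : X ≤ H := sup_le hKH (Subgroup.zpowers_le.2 hr)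
  haveI := Subgroup.isCyclic_zpowers r
  have hzθ : Subgroup.zpowers r ≤ stab θ := Subgroup.zpowers_le.2 (hHθ hr)
  obtain ⟨ψ, hψ, hψθ⟩ := exists_ext_cyclic hzr hθ hzθ
  refine ⟨ψ, hψ, hψθ, fun χ hχ => ?_⟩
  rw [mem_overIrr] at hχ
  have hcX : IsCharOn X χ := hχ.1.isCharOn.mono hXH
  haveI : (K.subgroupOf X).Normal := (Subgroup.normal_subgroupOf_iff_le_normalizer le_sup_left).2
    (sup_le Subgroup.le_normalizer hzr)
  let e : K.subgroupOf X ≃* K := Subgroup.subgroupOfEquivOfLe le_sup_left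
  have hcoef : ∀ ω, IsIrrOn X ω → mu X χ ω ≠ 0 →
      ∃ c : ℂ, ∀ k ∈ K, ω (k * r) = c * ψ (k * r) := by
    intro ω hω hm
    obtain ⟨η, hη, hmη⟩ := exists_mu_ne_zero (hω.isCharOn.mono le_sup_left)
      (by rw [hω.isCharOn.apply_one]; exact_mod_cast hω.deg_pos.ne')
    have hne : mu K χ η ≠ 0 := by
      rw [mu_trans le_sup_left hcX hη]
      intro h1
      exact Nat.mul_ne_zero hm hmη (Finset.sum_eq_zero_iff.1 h1 ω (mem_irrOn.2 hω))
    have hηθ := (res_eq_mul_of_invariant hKH hHK hθ hHθ hχ.1 hχ.2).2 η hη hne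
    subst hηθ
    have hωθ := res_eq_of_over hzr hη hzθ hω hmη
    obtain ⟨l, hl1, hl⟩ := Clifford.exists_linFun_of_extensions (N := K.subgroupOf X)
      (θ := fun n => η (e n)) (isIrrCharacter_comp_mulEquiv hη.1 e) hψ.1 (fun n => hψθ _ n.2)
      hω.1 (fun n => hωθ _ n.2)
    refine ⟨(l ⟨r, hrX⟩ : ℂ), fun k hk => ?_⟩
    have h2 := congrFun hl ⟨k * r, mul_mem (le_sup_left (b := Subgroup.zpowers r) hk) hrX⟩
    refine h2.trans ?_
    show (l ⟨k * r, _⟩ : ℂ) * ψ (k * r) = _
    rw [show (⟨k * r, mul_mem (le_sup_left (b := Subgroup.zpowers r) hk) hrX⟩ : X) =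
      ⟨k, le_sup_left (b := Subgroup.zpowers r) hk⟩ * ⟨r, hrX⟩ from rfl, map_mul,
      hl1 ⟨⟨k, le_sup_left (b := Subgroup.zpowers r) hk⟩, hk⟩, one_mul]
  choose c hc using hcoef
  refine ⟨∑ ω ∈ irrOn X, if h : IsIrrOn X ω ∧ mu X χ ω ≠ 0 then (mu X χ ω : ℂ) * c ω h.1 h.2 else 0,
    fun k hk => ?_⟩
  rw [hcX.decomp (mul_mem (le_sup_left (b := Subgroup.zpowers r) hk) hrX), Finset.sum_mul]
  refine Finset.sum_congr rfl fun ω hω => ?_
  by_cases hm : mu X χ ω = 0
  · rw [dif_neg fun h => h.2 hm, hm, Nat.cast_zero, zero_mul, zero_mul]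
  · rw [dif_pos ⟨mem_irrOn.1 hω, hm⟩, hc ω (mem_irrOn.1 hω) hm k hk]
    ring

/-- The degrees of the characters over a character sum to the induced degree. -/
theorem sum_mu_mul_deg {B H : Subgroup G} (hBH : B ≤ H) {θ : G → ℂ} (hθ : IsIrrOn B θ) :
    ∑ f ∈ overIrr H B θ, mu B f θ * deg f = B.relIndex H * deg θ := by
  haveI := Fintype.ofFinite H
  haveI := Fintype.ofFinite B
  haveI := Fintype.ofFinite (B.subgroupOf H)
  let e : B.subgroupOf H ≃* B := Subgroup.subgroupOfEquivOfLe hBH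
  let θ' : B.subgroupOf H → ℂ := fun n => θ (e n)
  let F : G → ℂ := extendByZero H (indFun (B.subgroupOf H) θ')
  have hF : IsCharOn H F := by
    rw [IsCharOn, extend_coe]
    exact Frobenius.isCharacter_indFun _ _ (Coherence.isCharacter_comp hθ.isCharOn e.toMonoidHom)
  have hF1 : deg F = B.relIndex H * deg θ := by
    have h1 : F 1 = (B.relIndex H : ℂ) * (deg θ : ℂ) := by
      show extendByZero H (indFun (B.subgroupOf H) θ') ((1 : H) : G) = _
      rw [Frobenius.extendByZero_coe, Frobenius.indFun_one, ← hθ.isCharOn.apply_one]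
      rfl
    rw [hF.apply_one] at h1
    exact_mod_cast h1
  rw [← hF1, deg_eq_sum hF, overIrr, Finset.sum_filter]
  refine Finset.sum_congr rfl fun f hf => ?_
  rw [mem_irrOn] at hf
  have h2 : ip H F f = conj (ip B f θ) := by
    rw [ip_eq, extend_coe, Frobenius.classInner_indFun _ _ _ (IsIrrCharacter.isClassFunction hf.1),
      classInner_conj_symm, ip_eq, ← Clifford.classInner_comp_mulEquiv e]
    rfl
  rw [ip_eq_mu hF hf, ip_eq_mu (hf.isCharOn.mono hBH) hθ, Complex.conj_natCast] at h2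
  have h3 : mu H F f = mu B f θ := by exact_mod_cast h2
  rw [h3]
  split_ifs with h <;> simp_all

/-- **Restriction to a supplement.** -/
theorem card_overIrr_restrict {A K R : Subgroup G} (hKA : K ≤ A)
    (hRA : R ≤ Subgroup.normalizer (A : Set G)) (hRK : R ≤ Subgroup.normalizer (K : Set G))
    (hinf : R ⊓ A ≤ K) {η θ : G → ℂ} (hη : IsIrrOn A η) (hθ : IsIrrOn K θ)
    (hres : ∀ x ∈ K, η x = θ x) (hRη : R ≤ stab η) :
    (overIrr (A ⊔ R) A η).card = (overIrr (K ⊔ R) K θ).card := by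
  haveI := Fintype.ofFinite R
  set J := A ⊔ R with hJ
  set H := K ⊔ R with hH
  have hHJ : H ≤ J := sup_le_sup_right hKA R
  have hJA : J ≤ Subgroup.normalizer (A : Set G) := sup_le Subgroup.le_normalizer hRA
  have hHK : H ≤ Subgroup.normalizer (K : Set G) := sup_le Subgroup.le_normalizer hRK
  have hJη : J ≤ stab η := sup_le hη.le_stab hRη
  have hRθ : R ≤ stab θ := fun r hr => by
    refine mem_stab.2 ((hθ.cj (hRK hr)).ext hθ fun x hx => ?_)
    show θ (r * x * r⁻¹) = θ x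
    rw [← hres _ ((mem_conj_iff (hRK hr) x).2 hx), ← hres x hx]
    exact congrFun (mem_stab.1 (hRη hr)) x
  have hHθ : H ≤ stab θ := sup_le hθ.le_stab hRθ
  -- inner products are preserved
  have key : ∀ χ ∈ overIrr J A η, ∀ χ' ∈ overIrr J A η, ip H χ χ' = ip J χ χ' := by
    intro χ hχ χ' hχ'
    rw [ip_eq_avg, ip_eq_avg, hH, hJ, avg_sup hRK, avg_sup hRA]
    congr 1
    refine Finset.sum_congr rfl fun r _ => ?_
    obtain ⟨ψ, hψ, hψη, hscal⟩ :=
      exists_coset_scalar le_sup_left hJA hη hJη (le_sup_right (a := A) r.2)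
    obtain ⟨a, ha⟩ := hscal χ hχ
    obtain ⟨a', ha'⟩ := hscal χ' hχ'
    rw [avg_congr (H := K) (F' := fun k => (a * conj a') * (ψ (k * r) * conj (ψ (k * r))))
        (fun k hk => by rw [ha k (hKA hk), ha' k (hKA hk), map_mul]; ring),
      avg_congr (H := A) (F' := fun k => (a * conj a') * (ψ (k * r) * conj (ψ (k * r))))
        (fun k hk => by rw [ha k hk, ha' k hk, map_mul]; ring), avg_const_mul, avg_const_mul]
    congr 1
    have hA1 := avg_coset_mul_conj le_sup_left
      (sup_le Subgroup.le_normalizer (Subgroup.zpowers_le.2 (hRA r.2))) hη hη hψ hψ hψη hψη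
      (le_sup_right (a := A) (Subgroup.mem_zpowers (r : G))) (fun _ => rfl)
    rw [if_pos rfl] at hA1
    rw [hA1]
    -- the restriction of `ψ` to `K⟨r⟩` is an extension of `θ`
    obtain ⟨f, hf, hfθ⟩ := ExtTo.mono (B := K) (H := A ⊔ Subgroup.zpowers (r : G))
      (H' := K ⊔ Subgroup.zpowers (r : G)) le_sup_left (sup_le_sup_right hKA _) hθ
      ⟨ψ, hψ, fun x hx => (hψη x (hKA hx)).trans (hres x hx)⟩
    have hcut : IsIrrOn (K ⊔ Subgroup.zpowers (r : G)) (cut (K ⊔ Subgroup.zpowers (r : G)) ψ) := by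
      refine isIrrOn_cut ?_
      have hc : IsCharOn (K ⊔ Subgroup.zpowers (r : G)) ψ := hψ.isCharOn.mono (sup_le_sup_right hKA _)
      haveI := Fintype.ofFinite (K ⊔ Subgroup.zpowers (r : G) : Subgroup G)
      rw [isIrrCharacter_iff_norm_one hc, ← ip_eq]
      obtain ⟨ω, hω, hmω⟩ := exists_mu_ne_zero hc
        (by rw [hψ.isCharOn.apply_one]; exact_mod_cast hψ.deg_pos.ne')
      obtain ⟨ζ, hζ, hmζ⟩ := exists_mu_ne_zero (hω.isCharOn.mono le_sup_left)
        (by rw [hω.isCharOn.apply_one]; exact_mod_cast hω.deg_pos.ne')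
      have hψθ : ∀ x ∈ K, ψ x = θ x := fun x hx => (hψη x (hKA hx)).trans (hres x hx)
      have hζθ : ζ = θ := by
        by_contra hne
        have h2 := mu_trans le_sup_left hc hζ
        rw [mu_eq_of_res (H := K) hθ hψθ ζ hζ, if_neg hne, eq_comm, Finset.sum_eq_zero_iff] at h2
        exact Nat.mul_ne_zero hmω hmζ (h2 ω (mem_irrOn.2 hω))
      subst hζθ
      haveI := Subgroup.isCyclic_zpowers (r : G)
      have hωθ := res_eq_of_over (Subgroup.zpowers_le.2 (hRK r.2)) hζ
        (Subgroup.zpowers_le.2 (hRθ r.2)) hω hmζ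
      have hd1 : deg ω = deg ζ := by
        have h1 : ω 1 = ζ 1 := hωθ 1 (one_mem K)
        rw [hω.isCharOn.apply_one, hζ.isCharOn.apply_one] at h1
        exact_mod_cast h1
      have hd2 : deg ψ = deg ζ := by
        have h1 : ψ 1 = ζ 1 := hψθ 1 (one_mem K)
        rw [hψ.isCharOn.apply_one, hζ.isCharOn.apply_one] at h1
        exact_mod_cast h1
      have hdec := deg_eq_sum hc
      rw [← Finset.add_sum_erase _ _ (mem_irrOn.2 hω)] at hdec
      have h3 : deg ω ≤ mu (K ⊔ Subgroup.zpowers (r : G)) ψ ω * deg ω :=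
        Nat.le_mul_of_pos_left _ (Nat.pos_of_ne_zero hmω)
      have hrest : ∑ x ∈ (irrOn (K ⊔ Subgroup.zpowers (r : G))).erase ω,
          mu (K ⊔ Subgroup.zpowers (r : G)) ψ x * deg x = 0 := by omega
      have hone : mu (K ⊔ Subgroup.zpowers (r : G)) ψ ω = 1 := by
        refine Nat.eq_of_mul_eq_mul_right hω.deg_pos ?_
        rw [one_mul]; omega
      have heq : ∀ x ∈ K ⊔ Subgroup.zpowers (r : G), ψ x = ω x := by
        intro x hx
        rw [hc.decomp hx, ← Finset.add_sum_erase _ _ (mem_irrOn.2 hω), hone, Nat.cast_one, one_mul,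
          Finset.sum_eq_zero (fun ζ' hζ' => ?_), add_zero]
        rcases Nat.mul_eq_zero.1 (Finset.sum_eq_zero_iff.1 hrest ζ' hζ') with h6 | h6
        · rw [h6, Nat.cast_zero, zero_mul]
        · exact absurd h6 (mem_irrOn.1 (Finset.mem_of_mem_erase hζ')).deg_pos.ne'
      rw [ip_congr heq heq, ip_self hω]
    have hK1 := avg_coset_mul_conj le_sup_left
      (sup_le Subgroup.le_normalizer (Subgroup.zpowers_le.2 (hRK r.2))) hθ hθ hcut hcut
      (fun x hx => (cut_of_mem (le_sup_left (b := Subgroup.zpowers (r : G)) hx)).trans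
        ((hψη x (hKA hx)).trans (hres x hx)))
      (fun x hx => (cut_of_mem (le_sup_left (b := Subgroup.zpowers (r : G)) hx)).trans
        ((hψη x (hKA hx)).trans (hres x hx)))
      (le_sup_right (a := K) (Subgroup.mem_zpowers (r : G))) (fun _ => rfl)
    rw [if_pos rfl] at hK1
    rw [← hK1]
    refine avg_congr fun k hk => ?_
    rw [cut_of_mem (mul_mem (le_sup_left (b := Subgroup.zpowers (r : G)) hk)
      (le_sup_right (a := K) (Subgroup.mem_zpowers (r : G))))]
  -- the restriction map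
  have hirr : ∀ χ ∈ overIrr J A η, IsIrrOn H (cut H χ) := fun χ hχ => by
    refine isIrrOn_cut ?_
    haveI := Fintype.ofFinite H
    rw [isIrrCharacter_iff_norm_one ((mem_overIrr.1 hχ).1.isCharOn.mono hHJ), ← ip_eq, key χ hχ χ hχ,
      ip_self (mem_overIrr.1 hχ).1]
  have hmu : ∀ χ ∈ overIrr J A η, mu K (cut H χ) θ = mu A χ η := fun χ hχ => by
    rw [mem_overIrr] at hχ
    have h1 := (res_eq_mul_of_invariant le_sup_left hJA hη hJη hχ.1 hχ.2).1
    have h2 : ip K (cut H χ) θ = (mu A χ η : ℂ) := by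
      rw [ip_congr (f' := fun x => ∑ i ∈ ({()} : Finset Unit), (mu A χ η : ℂ) * θ x) (fun x hx => by
        rw [cut_of_mem (le_sup_left (b := R) hx), h1 x (hKA hx), hres x hx]; simp) (fun x _ => rfl),
        ip_sum_left]
      simp [ip_self hθ]
    simp [mu, h2]
  have hdeg : ∀ χ ∈ overIrr J A η, deg (cut H χ) = deg χ := fun χ _ => by
    simp [deg, charDegree, cut, one_mem H]
  have hinj : Set.InjOn (cut H) (overIrr J A η : Set (G → ℂ)) := by
    intro χ hχ χ' hχ' he
    by_contra hne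
    have h1 := key χ hχ χ' hχ'
    rw [ip_eq_zero (mem_overIrr.1 hχ).1 (mem_overIrr.1 hχ').1 hne,
      ip_congr (f' := cut H χ) (g' := cut H χ') (fun x hx => (cut_of_mem hx).symm)
        (fun x hx => (cut_of_mem hx).symm), he, ip_self (hirr χ' hχ')] at h1
    exact one_ne_zero h1
  have hsub : (overIrr J A η).image (cut H) ⊆ overIrr H K θ := fun f hf => by
    obtain ⟨χ, hχ, rfl⟩ := Finset.mem_image.1 hf
    exact mem_overIrr.2 ⟨hirr χ hχ, by rw [hmu χ hχ]; exact (mem_overIrr.1 hχ).2⟩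
  have hidx : A.relIndex J = K.relIndex H := by
    rw [hJ, hH, relIndex_sup' hRA, relIndex_sup' hRK, ← Subgroup.inf_relIndex_right A R,
      ← Subgroup.inf_relIndex_right K R]
    congr 1
    exact le_antisymm (le_inf (inf_comm A R ▸ hinf) inf_le_right) (inf_le_inf_right R hKA)
  have heta : deg η = deg θ := by
    have h1 : η 1 = θ 1 := hres 1 (one_mem K)
    rw [hη.isCharOn.apply_one, hθ.isCharOn.apply_one] at h1
    exact_mod_cast h1
  have htot : ∑ f ∈ (overIrr J A η).image (cut H), mu K f θ * deg f =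
      ∑ f ∈ overIrr H K θ, mu K f θ * deg f := by
    rw [sum_mu_mul_deg le_sup_left hθ, Finset.sum_image hinj,
      Finset.sum_congr rfl (g := fun χ => mu A χ η * deg χ) fun χ hχ => by rw [hmu χ hχ, hdeg χ hχ],
      sum_mu_mul_deg le_sup_left hη, hidx, heta]
  have himg : (overIrr J A η).image (cut H) = overIrr H K θ := by
    refine Finset.Subset.antisymm hsub fun f hf => ?_
    by_contra hni
    rw [← Finset.sum_sdiff hsub, right_eq_add, Finset.sum_eq_zero_iff] at htot
    have h1 := htot f (Finset.mem_sdiff.2 ⟨hf, hni⟩)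
    exact Nat.mul_ne_zero (mem_overIrr.1 hf).2 (mem_overIrr.1 hf).1.deg_pos.ne' h1
  rw [← himg, Finset.card_image_of_injOn hinj]

end

end CfsgLib.RelMcKay
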