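import Mathlib
import Cfsg.Agent.Lib.RelMcKay.ExtTools

/-!
# Sylow subgroups modulo a normal subgroup
-/

set_option autoImplicit false
set_option linter.style.haveILetI false
set_option linter.unusedSectionVars false

open scoped Pointwise

namespace CfsgLib.RelMcKay

variable {G : Type*} [Group G] [Finite G] {p : ℕ} [hp : Fact p.Prime]

/-- A `p`-group over `L` has `p`-power index over it. -/
theorem exists_relIndex_eq_pow {L P : Subgroup G} (hLP : L ≤ P)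
    (hPL : P ≤ Subgroup.normalizer (L : Set G)) (hpow : ∀ x ∈ P, ∃ a : ℕ, x ^ p ^ a ∈ L) :
    ∃ n : ℕ, L.relIndex P = p ^ n := by
  haveI : (L.subgroupOf P).Normal := (Subgroup.normal_subgroupOf_iff_le_normalizer hLP).2 hPL
  have hP : IsPGroup p (P ⧸ L.subgroupOf P) := by
    intro x
    obtain ⟨⟨q, hq⟩, rfl⟩ := QuotientGroup.mk_surjective x
    obtain ⟨a, ha⟩ := hpow q hq
    refine ⟨a, ?_⟩
    rw [← QuotientGroup.mk_pow, QuotientGroup.eq_one_iff, Subgroup.mem_subgroupOf]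
    exact ha
  exact IsPGroup.iff_card.1 hP

/-- Powers of the relative index land in a normal subgroup. -/
theorem pow_relIndex_mem {L H : Subgroup G} (hLH : L ≤ H)
    (hHL : H ≤ Subgroup.normalizer (L : Set G)) {x : G} (hx : x ∈ H) : x ^ L.relIndex H ∈ L := by
  haveI : (L.subgroupOf H).Normal := (Subgroup.normal_subgroupOf_iff_le_normalizer hLH).2 hHL
  exact (L.subgroupOf H).pow_index_mem (⟨x, hx⟩ : H)

/-- Two Sylow subgroups modulo a normal subgroup are conjugate. -/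
theorem exists_conj_of_sylow {L T P P' : Subgroup G} (hTL : T ≤ Subgroup.normalizer (L : Set G))
    (hLP : L ≤ P) (hLP' : L ≤ P') (hPT : P ≤ T) (hP'T : P' ≤ T)
    (hpow : ∀ x ∈ P, ∃ a : ℕ, x ^ p ^ a ∈ L) (hpow' : ∀ x ∈ P', ∃ a : ℕ, x ^ p ^ a ∈ L)
    (hidx : ¬ p ∣ P.relIndex T) (hidx' : ¬ p ∣ P'.relIndex T) :
    ∃ t ∈ T, ∀ x, t * x * t⁻¹ ∈ P' ↔ x ∈ P := by
  haveI : (L.subgroupOf T).Normal :=
    (Subgroup.normal_subgroupOf_iff_le_normalizer (hLP.trans hPT)).2 hTL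
  set π := QuotientGroup.mk' (L.subgroupOf T) with hπ
  have hS : ∀ R : Subgroup G, L ≤ R → (∀ x ∈ R, ∃ a : ℕ, x ^ p ^ a ∈ L) → ¬ p ∣ R.relIndex T →
      ∃ S : Sylow p (T ⧸ L.subgroupOf T), ∀ x : T, π x ∈ S ↔ (x : G) ∈ R := by
    intro R hLR hRpow hRidx
    have h1 : IsPGroup p ((R.subgroupOf T).map π) := by
      rintro ⟨_, x, hx, rfl⟩
      obtain ⟨a, ha⟩ := hRpow _ (Subgroup.mem_subgroupOf.1 hx)
      refine ⟨a, Subtype.ext ?_⟩
      rw [Subgroup.coe_pow, Subgroup.coe_one, ← map_pow, hπ, QuotientGroup.mk'_apply,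
        QuotientGroup.eq_one_iff, Subgroup.mem_subgroupOf, Subgroup.coe_pow]
      exact ha
    have hker : π.ker ≤ R.subgroupOf T := by
      rw [hπ, QuotientGroup.ker_mk']
      exact Subgroup.comap_mono hLR
    have h2 : ¬ p ∣ ((R.subgroupOf T).map π).index := by
      rw [Subgroup.index_map_eq _ (QuotientGroup.mk'_surjective _) hker]
      exact hRidx
    refine ⟨h1.toSylow h2, fun x => ?_⟩
    rw [IsPGroup.mem_toSylow, ← Subgroup.mem_comap, Subgroup.comap_map_eq_self hker,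
      Subgroup.mem_subgroupOf]
  obtain ⟨S, hSP⟩ := hS P hLP hpow hidx
  obtain ⟨S', hSP'⟩ := hS P' hLP' hpow' hidx'
  obtain ⟨q, hq⟩ := MulAction.exists_smul_eq (T ⧸ L.subgroupOf T) S S'
  obtain ⟨t, rfl⟩ := QuotientGroup.mk'_surjective (L.subgroupOf T) q
  refine ⟨t, t.2, fun x => ?_⟩
  by_cases hx : x ∈ T
  · rw [← hSP ⟨x, hx⟩, show (t : G) * x * (t : G)⁻¹ = ((t * ⟨x, hx⟩ * t⁻¹ : T) : G) from rfl,
      ← hSP' (t * ⟨x, hx⟩ * t⁻¹), ← hq, map_mul, map_mul, map_inv]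
    show π t * π ⟨x, hx⟩ * (π t)⁻¹ ∈
      (MulAut.conj (π t) • (S : Subgroup (T ⧸ L.subgroupOf T))) ↔ π ⟨x, hx⟩ ∈ (S : Subgroup (T ⧸ L.subgroupOf T))
    rw [← MulAut.conj_apply]
    exact Subgroup.smul_mem_pointwise_smul_iff
  · refine iff_of_false (fun h => hx ?_) fun h => hx (hPT h)
    simpa [mul_assoc] using mul_mem (mul_mem (inv_mem t.2) (hP'T h)) t.2

/-- A conjugate of a Sylow subgroup modulo a normal subgroup is one. -/
theorem map_conj_sylow {L T P : Subgroup G} {x : G} (hxL : x ∈ Subgroup.normalizer (L : Set G))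
    (hLP : L ≤ P) (hPT : P ≤ T) (hT : P.map (MulAut.conj x).toMonoidHom ≤ T)
    (hpow : ∀ y ∈ P, ∃ a : ℕ, y ^ p ^ a ∈ L) (hidx : ¬ p ∣ P.relIndex T) :
    L ≤ P.map (MulAut.conj x).toMonoidHom ∧
      (∀ y ∈ P.map (MulAut.conj x).toMonoidHom, ∃ a : ℕ, y ^ p ^ a ∈ L) ∧
      ¬ p ∣ (P.map (MulAut.conj x).toMonoidHom).relIndex T := by
  refine ⟨fun l hl => ⟨x⁻¹ * l * x, hLP ((mem_conj_iff hxL _).1 (by simpa [mul_assoc] using hl)),
    by simp [mul_assoc]⟩, ?_, ?_⟩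
  · rintro _ ⟨y, hy, rfl⟩
    obtain ⟨a, ha⟩ := hpow y hy
    refine ⟨a, ?_⟩
    rw [← map_pow]
    exact (mem_conj_iff hxL _).2 ha
  · have h1 := Subgroup.relIndex_mul_relIndex ⊥ P T bot_le hPT
    have h2 := Subgroup.relIndex_mul_relIndex ⊥ _ T bot_le hT
    rw [Subgroup.relIndex_bot_left, Subgroup.relIndex_bot_left] at h1 h2
    rw [← h1, ← Nat.card_congr
      (P.equivMapOfInjective (MulAut.conj x).toMonoidHom (MulAut.conj x).injective).toEquiv] at h2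
    rwa [Nat.eq_of_mul_eq_mul_left Nat.card_pos h2]

end CfsgLib.RelMcKay
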