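import Mathlib
import Cfsg.Agent.Lib.RelMcKay.Restriction
import Cfsg.Agent.Lib.RelMcKay.SylowMod
import Cfsg.Agent.Lib.RealChar.DegreeRatio

/-!
# Clifford theory and counting of characters of degree prime to `p`
-/

set_option autoImplicit false
set_option linter.style.haveILetI false
set_option linter.unusedSectionVars false

open scoped ComplexConjugate Pointwise
open Cfsg CfsgLib.CharTheory

namespace CfsgLib.RelMcKay

noncomputable section

open scoped Classical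

variable {G : Type*} [Group G] [Finite G] {p : ℕ} [hp : Fact p.Prime]

theorem isIrr_sub {K H : Subgroup G} (hKH : K ≤ H) {θ : G → ℂ} (hθ : IsIrrOn K θ) :
    IsIrrCharacter (K.subgroupOf H) (fun n => θ ((n : H) : G)) :=
  isIrrCharacter_comp_mulEquiv hθ.1 (Subgroup.subgroupOfEquivOfLe hKH)

theorem classInner_sub {K H : Subgroup G} [Fintype (K.subgroupOf H)] (hKH : K ≤ H) {χ ζ : G → ℂ}
    (hχ : IsCharOn K χ) (hζ : IsIrrOn K ζ) :
    classInner (fun n : K.subgroupOf H => χ ((n : H) : G)) (fun n => ζ ((n : H) : G)) =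
      (mu K χ ζ : ℂ) := by
  haveI := Fintype.ofFinite K
  rw [← ip_eq_mu hχ hζ, ip_eq,
    ← Clifford.classInner_comp_mulEquiv (Subgroup.subgroupOfEquivOfLe hKH)]
  rfl

section

variable {K H : Subgroup G} (hKH : K ≤ H) (hHK : H ≤ Subgroup.normalizer (K : Set G))
  {χ θ : G → ℂ} (hχ : IsIrrOn H χ) (hθ : IsIrrOn K θ)

include hKH hHK hθ in
theorem mem_inertia_iff [hn : (K.subgroupOf H).Normal] (g : H) :
    g ∈ (H ⊓ stab θ).subgroupOf H ↔
      Clifford.conjChar (K.subgroupOf H) (fun n => θ ((n : H) : G)) g =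
        fun n : K.subgroupOf H => θ ((n : H) : G) := by
  rw [Subgroup.mem_subgroupOf, Subgroup.mem_inf, and_iff_right g.2, mem_stab]
  constructor
  · intro h
    funext n
    exact congrFun h ((n : H) : G)
  · intro h
    exact (hθ.cj (hHK g.2)).ext hθ fun x hx =>
      congrFun h ⟨⟨x, hKH hx⟩, Subgroup.mem_subgroupOf.2 hx⟩

include hKH hHK hχ hθ

/-- The constituents on a normal subgroup are conjugate. -/
theorem exists_cj_of_constituents {η : G → ℂ} (hη : IsIrrOn K η) (hm : mu K χ θ ≠ 0)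
    (hm' : mu K χ η ≠ 0) : ∃ h ∈ H, cj h θ = η := by
  haveI : (K.subgroupOf H).Normal := (Subgroup.normal_subgroupOf_iff_le_normalizer hKH).2 hHK
  haveI := Fintype.ofFinite H
  haveI := Fintype.ofFinite (K.subgroupOf H)
  obtain ⟨g, hg⟩ := Clifford.exists_conj_of_constituents (K.subgroupOf H) hχ.1 (isIrr_sub hKH hθ)
    (isIrr_sub hKH hη) (by rw [classInner_sub hKH (hχ.isCharOn.mono hKH) hθ]; exact_mod_cast hm)
    (by rw [classInner_sub hKH (hχ.isCharOn.mono hKH) hη]; exact_mod_cast hm')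
  exact ⟨g, g.2, (hθ.cj (hHK g.2)).ext hη fun x hx =>
    (congrFun hg ⟨⟨x, hKH hx⟩, Subgroup.mem_subgroupOf.2 hx⟩).symm⟩

/-- The degree of a character over `θ`. -/
theorem deg_clifford (hm : mu K χ θ ≠ 0) :
    deg χ = mu K χ θ * (H ⊓ stab θ).relIndex H * deg θ ∧
      mu K χ θ * (H ⊓ stab θ).relIndex H ∣ K.relIndex H := by
  haveI : (K.subgroupOf H).Normal := (Subgroup.normal_subgroupOf_iff_le_normalizer hKH).2 hHK
  haveI := Fintype.ofFinite H
  haveI := Fintype.ofFinite (K.subgroupOf H)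
  have hθ' := isIrr_sub hKH hθ
  have hne : classInner (fun n : K.subgroupOf H => χ ((n : H) : G)) (fun n => θ ((n : H) : G)) ≠ 0 := by
    rw [classInner_sub hKH (hχ.isCharOn.mono hKH) hθ]; exact_mod_cast hm
  have h1 := Clifford.apply_one_eq (K.subgroupOf H) hχ.1 hθ' hne
  rw [classInner_sub hKH (hχ.isCharOn.mono hKH) hθ,
    Clifford.card_conjOrbit (K.subgroupOf H) _ _ (mem_inertia_iff hKH hHK hθ)] at h1
  obtain ⟨r, hr, hr1⟩ := RealChar.degree_div_dvd_index (K.subgroupOf H) hχ.1 hθ' hne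
  rw [hr1] at h1
  have h2 := mul_right_cancel₀ (apply_one_ne_zero_of_isIrr hθ') h1
  have h3 : r = mu K χ θ * (H ⊓ stab θ).relIndex H := by
    rw [Subgroup.relIndex]; exact_mod_cast h2
  refine ⟨?_, by rwa [← h3]⟩
  have h4 : χ 1 = (r : ℂ) * θ 1 := hr1
  rw [hχ.isCharOn.apply_one, hθ.isCharOn.apply_one, h3] at h4
  exact_mod_cast h4

theorem deg_dvd_of_over (hm : mu K χ θ ≠ 0) : deg θ ∣ deg χ :=
  Dvd.intro_left _ (deg_clifford hKH hHK hχ hθ hm).1.symm

/-- Degrees prime to `p` go up along indices prime to `p`. -/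
theorem not_dvd_deg (hm : mu K χ θ ≠ 0) (hidx : ¬ p ∣ K.relIndex H) (hd : ¬ p ∣ deg θ) :
    ¬ p ∣ deg χ := by
  obtain ⟨h1, h2⟩ := deg_clifford hKH hHK hχ hθ hm
  rw [h1]
  exact fun h => (hp.out.dvd_mul.1 h).elim (fun h3 => hidx (h3.trans h2)) hd

/-- Over a `p`-quotient, a character of degree prime to `p` restricts irreducibly. -/
theorem res_eq_of_pPow (hm : mu K χ θ ≠ 0) (hpow : ∀ x ∈ H, ∃ a : ℕ, x ^ p ^ a ∈ K)
    (hd : ¬ p ∣ deg χ) : H ≤ stab θ ∧ ∀ x ∈ K, χ x = θ x := by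
  obtain ⟨h1, h2⟩ := deg_clifford hKH hHK hχ hθ hm
  obtain ⟨n, hn⟩ := exists_relIndex_eq_pow hKH hHK hpow
  rw [hn] at h2
  obtain ⟨k, -, hk⟩ := (Nat.dvd_prime_pow hp.out).1 h2
  rw [hk] at h1
  have hk0 : k = 0 := by
    by_contra h0
    exact hd (h1 ▸ dvd_mul_of_dvd_left (dvd_pow_self p h0) _)
  rw [hk0, pow_zero, mul_eq_one] at hk
  have hs : H ≤ stab θ := (Subgroup.relIndex_eq_one.1 hk.2).trans inf_le_right
  refine ⟨hs, fun x hx => ?_⟩
  rw [(res_eq_mul_of_invariant hKH hHK hθ hs hχ hm).1 x hx, hk.1, Nat.cast_one, one_mul]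

end

/-- The number of characters of degree prime to `p` over `ν`. -/
def cnt (p : ℕ) (X L : Subgroup G) (ν : G → ℂ) : ℕ :=
  ((overIrr X L ν).filter fun χ => ¬ p ∣ deg χ).card

theorem cnt_eq_zero {X L : Subgroup G} (hLX : L ≤ X) (hXL : X ≤ Subgroup.normalizer (L : Set G))
    {ν : G → ℂ} (hν : IsIrrOn L ν) (hd : p ∣ deg ν) : cnt p X L ν = 0 := by
  rw [cnt, Finset.card_eq_zero, Finset.filter_eq_empty_iff]
  intro χ hχ h
  rw [mem_overIrr] at hχ
  exact h (hd.trans (deg_dvd_of_over hLX hXL hχ.1 hν hχ.2))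

theorem cnt_eq_card {X L : Subgroup G} (hLX : L ≤ X) (hXL : X ≤ Subgroup.normalizer (L : Set G))
    {ν : G → ℂ} (hν : IsIrrOn L ν) (hidx : ¬ p ∣ L.relIndex X) (hd : ¬ p ∣ deg ν) :
    cnt p X L ν = (overIrr X L ν).card := by
  rw [cnt, Finset.filter_true_of_mem]
  intro χ hχ
  rw [mem_overIrr] at hχ
  exact not_dvd_deg hLX hXL hχ.1 hν hχ.2 hidx hd

/-- Clifford correspondence on the counts. -/
theorem cnt_inertia {K H : Subgroup G} (hKH : K ≤ H) (hHK : H ≤ Subgroup.normalizer (K : Set G))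
    {θ : G → ℂ} (hθ : IsIrrOn K θ) (hidx : ¬ p ∣ (H ⊓ stab θ).relIndex H) :
    cnt p H K θ = cnt p (H ⊓ stab θ) K θ := by
  haveI : (K.subgroupOf H).Normal := (Subgroup.normal_subgroupOf_iff_le_normalizer hKH).2 hHK
  haveI := Fintype.ofFinite H
  haveI := Fintype.ofFinite (K.subgroupOf H)
  set T := H ⊓ stab θ with hT
  set T' := T.subgroupOf H with hT'
  haveI := Fintype.ofFinite T'
  have hKT : K ≤ T := le_inf hKH hθ.le_stab
  have hNT : K.subgroupOf H ≤ T' := Subgroup.comap_mono hKT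
  let e : T' ≃* T := Subgroup.subgroupOfEquivOfLe inf_le_left
  have hin := mem_inertia_iff hKH hHK hθ
  have hθ' := isIrr_sub hKH hθ
  let Ψ : (G → ℂ) → (G → ℂ) := fun f => extendByZero H (indFun T' fun t : T' => f ((t : H) : G))
  have hΨ : ∀ f ∈ overIrr T K θ, IsIrrOn H (Ψ f) ∧ mu K (Ψ f) θ = mu K f θ ∧
      deg (Ψ f) = T.relIndex H * deg f := by
    intro f hf
    rw [mem_overIrr] at hf
    have hf' : IsIrrCharacter T' (fun t : T' => f ((t : H) : G)) := isIrrCharacter_comp_mulEquiv hf.1.1 e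
    obtain ⟨hirr, hmul⟩ := Clifford.isIrrCharacter_indFun_inertia (T := T') hθ' hin hNT hf' (by
      show classInner (fun n : K.subgroupOf H => f ((n : H) : G)) _ ≠ 0
      rw [classInner_sub hKH (hf.1.isCharOn.mono hKT) hθ]; exact_mod_cast hf.2)
    have hΨirr : IsIrrOn H (Ψ f) := isIrrOn_extend hirr
    refine ⟨hΨirr, ?_, ?_⟩
    · have h1 : classInner (fun n : K.subgroupOf H => Ψ f ((n : H) : G)) (fun n => θ ((n : H) : G)) =
          classInner (fun n : K.subgroupOf H => f ((n : H) : G)) (fun n => θ ((n : H) : G)) := by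
        rw [← hmul]
        congr 1
        funext n
        exact Frobenius.extendByZero_coe H _ _
      rw [classInner_sub hKH (hΨirr.isCharOn.mono hKH) hθ,
        classInner_sub hKH (hf.1.isCharOn.mono hKT) hθ] at h1
      exact_mod_cast h1
    · have h1 : Ψ f ((1 : H) : G) = (T'.index : ℂ) * f 1 := by
        show extendByZero H _ ((1 : H) : G) = _
        rw [Frobenius.extendByZero_coe, Frobenius.indFun_one]
        rfl
      rw [OneMemClass.coe_one, hΨirr.isCharOn.apply_one, hf.1.isCharOn.apply_one] at h1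
      rw [Subgroup.relIndex]
      exact_mod_cast h1
  symm
  refine Finset.card_bij (fun f _ => Ψ f) (fun f hf => ?_) (fun f hf f' hf' he => ?_) (fun χ hχ => ?_)
  · rw [Finset.mem_filter] at hf ⊢
    obtain ⟨h1, h2, h3⟩ := hΨ f hf.1
    refine ⟨mem_overIrr.2 ⟨h1, h2 ▸ (mem_overIrr.1 hf.1).2⟩, ?_⟩
    rw [h3]
    exact fun h => (hp.out.dvd_mul.1 h).elim hidx hf.2
  · rw [Finset.mem_filter, mem_overIrr] at hf hf'
    have h1 : (fun t : T' => f ((t : H) : G)) = fun t : T' => f' ((t : H) : G) := by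
      refine Clifford.indFun_inertia_injective (T := T') hθ' hin hNT
        (isIrrCharacter_comp_mulEquiv hf.1.1.1 e) (isIrrCharacter_comp_mulEquiv hf'.1.1.1 e) ?_ ?_ ?_
      · show classInner (fun n : K.subgroupOf H => f ((n : H) : G)) _ ≠ 0
        rw [classInner_sub hKH (hf.1.1.isCharOn.mono hKT) hθ]; exact_mod_cast hf.1.2
      · show classInner (fun n : K.subgroupOf H => f' ((n : H) : G)) _ ≠ 0
        rw [classInner_sub hKH (hf'.1.1.isCharOn.mono hKT) hθ]; exact_mod_cast hf'.1.2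
      · funext h
        rw [← Frobenius.extendByZero_coe H (indFun T' fun t : T' => f ((t : H) : G)) h,
          ← Frobenius.extendByZero_coe H (indFun T' fun t : T' => f' ((t : H) : G)) h]
        exact congrFun he h
    exact hf.1.1.ext hf'.1.1 fun x hx =>
      congrFun h1 ⟨⟨x, hx.1⟩, Subgroup.mem_subgroupOf.2 hx⟩
  · rw [Finset.mem_filter, mem_overIrr] at hχ
    obtain ⟨ψ, hψ, hind, hmul⟩ := Clifford.exists_indFun_inertia_eq (T := T') hθ' hin hNT hχ.1.1.1 (by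
      show classInner (fun n : K.subgroupOf H => χ ((n : H) : G)) _ ≠ 0
      rw [classInner_sub hKH (hχ.1.1.isCharOn.mono hKH) hθ]; exact_mod_cast hχ.1.2)
    set f := extendByZero T (fun t : T => ψ (e.symm t)) with hf
    have hfi : IsIrrOn T f := isIrrOn_extend (isIrrCharacter_comp_mulEquiv hψ e.symm)
    have hfψ : (fun t : T' => f ((t : H) : G)) = ψ := by
      funext t
      show extendByZero T _ ((e t : T) : G) = ψ t
      rw [Frobenius.extendByZero_coe, MulEquiv.symm_apply_apply]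
    have hΨf : Ψ f = χ := by
      show extendByZero H (indFun T' fun t : T' => f ((t : H) : G)) = χ
      rw [hfψ, hind]
      exact (isIrrOn_extend hχ.1.1.1).ext hχ.1.1 fun x hx => Frobenius.extendByZero_of_mem H _ hx
    have hfm : mu K f θ ≠ 0 := by
      intro h0
      have h1 : classInner (fun n : K.subgroupOf H => f ((n : H) : G)) (fun n => θ ((n : H) : G)) =
          classInner (fun n : K.subgroupOf H => χ ((n : H) : G)) (fun n => θ ((n : H) : G)) := by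
        rw [← hmul]
        congr 1
        funext n
        exact congrFun hfψ ⟨(n : H), hNT n.2⟩
      rw [classInner_sub hKH (hfi.isCharOn.mono hKT) hθ,
        classInner_sub hKH (hχ.1.1.isCharOn.mono hKH) hθ, h0] at h1
      exact hχ.1.2 (by exact_mod_cast h1.symm)
    refine ⟨f, Finset.mem_filter.2 ⟨mem_overIrr.2 ⟨hfi, hfm⟩, fun h => hχ.2 ?_⟩, hΨf⟩
    rw [← hΨf, (hΨ f (mem_overIrr.2 ⟨hfi, hfm⟩)).2.2]
    exact dvd_mul_of_dvd_right h _

/-! ### The split formula -/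

/-- The stabilizer orders along an orbit add up to the order of the group. -/
theorem sum_stab_orbit {N : Subgroup G} (s : Finset (G → ℂ)) {θ : G → ℂ}
    (hclosed : ∀ n ∈ N, cj n θ ∈ s) (htrans : ∀ η ∈ s, ∃ n ∈ N, cj n θ = η) :
    ∑ η ∈ s, Nat.card (N ⊓ stab η : Subgroup G) = Nat.card N := by
  haveI := Fintype.ofFinite N
  rw [Nat.card_eq_fintype_card, ← Finset.card_univ,
    Finset.card_eq_sum_card_fiberwise (f := fun n : N => cj (n : G) θ) (t := s)
      (fun n _ => hclosed n n.2)]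
  refine Finset.sum_congr rfl fun η hη => ?_
  obtain ⟨n₀, hn₀, hn₀η⟩ := htrans η hη
  rw [← Nat.card_eq_finsetCard]
  exact Nat.card_congr
    { toFun := fun t => ⟨⟨n₀ * t, mul_mem hn₀ t.2.1⟩, Finset.mem_filter.2 ⟨Finset.mem_univ _, by
        show cj (n₀ * (t : G)) θ = η
        rw [← cj_cj, hn₀η]; exact t.2.2⟩⟩
      invFun := fun n => ⟨n₀⁻¹ * n.1, Subgroup.mem_inf.2 ⟨mul_mem (inv_mem hn₀) n.1.2, by
        have h1 : cj ((n.1 : N) : G) θ = η := (Finset.mem_filter.1 n.2).2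
        show cj (n₀⁻¹ * (n.1 : G)) η = η
        refine ((congrArg (cj (n₀⁻¹ * (n.1 : G))) hn₀η.symm).trans ?_).trans h1
        rw [cj_cj, mul_inv_cancel_left]⟩⟩
      left_inv := fun t => Subtype.ext (by simp)
      right_inv := fun n => Subtype.ext (Subtype.ext (by simp)) }

/-- The fixed characters of degree prime to `p` over `ν`. -/
def theta (p : ℕ) (K L P : Subgroup G) (ν : G → ℂ) : Finset (G → ℂ) :=
  (overIrr K L ν).filter fun θ => P ≤ stab θ ∧ ¬ p ∣ deg θ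

theorem mem_theta {K L P : Subgroup G} {ν θ : G → ℂ} :
    θ ∈ theta p K L P ν ↔ (IsIrrOn K θ ∧ mu L θ ν ≠ 0) ∧ P ≤ stab θ ∧ ¬ p ∣ deg θ := by
  rw [theta, Finset.mem_filter, mem_overIrr]

/-- **Splitting the count over a normal subgroup.** -/
theorem card_mul_cnt {X L K P : Subgroup G} (hLK : L ≤ K) (hKX : K ≤ X)
    (hXK : X ≤ Subgroup.normalizer (K : Set G)) (hXL : X ≤ Subgroup.normalizer (L : Set G))
    (hLP : L ≤ P) (hPX : P ≤ X) (hpow : ∀ x ∈ P, ∃ a : ℕ, x ^ p ^ a ∈ L) (hidx : ¬ p ∣ P.relIndex X)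
    {ν : G → ℂ} (hν : IsIrrOn L ν) (hXν : X ≤ stab ν) :
    Nat.card (X ⊓ Subgroup.normalizer (P : Set G) : Subgroup G) * cnt p X L ν =
      ∑ θ ∈ theta p K L P ν, cnt p X K θ *
        Nat.card (X ⊓ Subgroup.normalizer (P : Set G) ⊓ stab θ : Subgroup G) := by
  set N := X ⊓ Subgroup.normalizer (P : Set G) with hN
  set S := (overIrr X L ν).filter fun χ => ¬ p ∣ deg χ with hS
  have hover : ∀ χ θ, IsIrrOn X χ → IsIrrOn K θ → mu K χ θ ≠ 0 → mu L θ ν ≠ 0 → mu L χ ν ≠ 0 := by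
    intro χ θ hχ hθ h1 h2 h0
    rw [mu_trans hLK (hχ.isCharOn.mono hKX) hν] at h0
    exact Nat.mul_ne_zero h1 h2 (Finset.sum_eq_zero_iff.1 h0 θ (mem_irrOn.2 hθ))
  have hfilter : ∀ θ ∈ theta p K L P ν,
      cnt p X K θ = (S.filter fun χ => mu K χ θ ≠ 0).card := by
    intro θ hθ
    rw [mem_theta] at hθ
    rw [cnt]
    congr 1
    ext χ
    simp only [hS, Finset.mem_filter, mem_overIrr]
    exact ⟨fun h => ⟨⟨⟨h.1.1, hover χ θ h.1.1 hθ.1.1 h.1.2 hθ.1.2⟩, h.2⟩, h.1.2⟩,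
      fun h => ⟨⟨h.1.1.1, h.2⟩, h.1.2⟩⟩
  have horbit : ∀ χ ∈ S, ∑ θ ∈ (theta p K L P ν).filter (fun θ => mu K χ θ ≠ 0),
      Nat.card (N ⊓ stab θ : Subgroup G) = Nat.card N := by
    intro χ hχ
    rw [hS, Finset.mem_filter, mem_overIrr] at hχ
    obtain ⟨⟨hχi, hχν⟩, hχd⟩ := hχ
    have hmodp : ((∑ θ ∈ irrOn K, mu K χ θ * deg θ : ℕ) : ZMod p) =
        ∑ θ ∈ fixedIrr K P, ((mu K χ θ * deg θ : ℕ) : ZMod p) :=
      sum_fixed (Q := P) (irrOn K)
        (fun x hx θ hθ => mem_irrOn.2 ((mem_irrOn.1 hθ).cj (hXK (hPX hx))))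
        (fun x hx => (hpow x hx).imp fun a ha θ hθ => (mem_irrOn.1 hθ).le_stab (hLK ha))
        (fun θ => mu K χ θ * deg θ)
        (fun x hx θ _ => by
          show mu K χ (cj x θ) * deg (cj x θ) = _
          rw [mu_cj_of_fixed (hXK (hPX hx)) (hχi.le_stab (hPX hx)), deg_cj])
    rw [← deg_eq_sum (hχi.isCharOn.mono hKX)] at hmodp
    obtain ⟨θ₀, hθ₀f, hθ₀⟩ := Finset.exists_ne_zero_of_sum_ne_zero (hmodp ▸
      fun h0 => hχd ((ZMod.natCast_eq_zero_iff _ _).1 h0))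
    rw [mem_fixedIrr] at hθ₀f
    obtain ⟨hθ₀i, hθ₀P⟩ := hθ₀f
    rw [Nat.cast_mul] at hθ₀
    have hm₀ : mu K χ θ₀ ≠ 0 := fun h0 => hθ₀ (by rw [h0, Nat.cast_zero, zero_mul])
    have hd₀ : ¬ p ∣ deg θ₀ := fun h0 => hθ₀ (by rw [(ZMod.natCast_eq_zero_iff _ _).2 h0, mul_zero])
    have hν₀ : mu L θ₀ ν ≠ 0 := by
      obtain ⟨ω, hω, hmω⟩ := exists_mu_ne_zero (hθ₀i.isCharOn.mono hLK)
        (by rw [hθ₀i.isCharOn.apply_one]; exact_mod_cast hθ₀i.deg_pos.ne')
      have h1 : mu L χ ω ≠ 0 := by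
        intro h0
        rw [mu_trans hLK (hχi.isCharOn.mono hKX) hω] at h0
        exact Nat.mul_ne_zero hm₀ hmω (Finset.sum_eq_zero_iff.1 h0 θ₀ (mem_irrOn.2 hθ₀i))
      rwa [← (res_eq_mul_of_invariant (hLK.trans hKX) hXL hν hXν hχi hχν).2 ω hω h1]
    refine sum_stab_orbit _ (θ := θ₀) (fun n hn => ?_) (fun η hη => ?_)
    · rw [Finset.mem_filter, mem_theta]
      refine ⟨⟨⟨hθ₀i.cj (hXK hn.1), ?_⟩, fun y hy => stab_cj (hθ₀P ((mem_conj_iff hn.2 y).2 hy)),
        by rwa [deg_cj]⟩, ?_⟩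
      · conv => enter [1, 3]; rw [← mem_stab.1 (hXν hn.1)]
        rwa [mu_cj (hXL hn.1)]
      · rwa [mu_cj_of_fixed (hXK hn.1) (hχi.le_stab hn.1)]
    · rw [Finset.mem_filter, mem_theta] at hη
      obtain ⟨⟨⟨hηi, -⟩, hηP, -⟩, hηm⟩ := hη
      obtain ⟨x, hx, hxη⟩ := exists_cj_of_constituents hKX hXK hχi hθ₀i hηi hm₀ hηm
      have hP'T : P.map (MulAut.conj x).toMonoidHom ≤ X ⊓ stab θ₀ := by
        rintro _ ⟨y, hy, rfl⟩
        show x * y * x⁻¹ ∈ X ⊓ stab θ₀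
        refine Subgroup.mem_inf.2 ⟨mul_mem (mul_mem hx (hPX hy)) (inv_mem hx), ?_⟩
        have h1 := mem_stab.1 (hηP hy)
        rw [← hxη, cj_cj] at h1
        show cj (x * y * x⁻¹) θ₀ = θ₀
        rw [← cj_cj, h1, cj_cj, mul_inv_cancel, cj_one]
      have hPT : P ≤ X ⊓ stab θ₀ := le_inf hPX hθ₀P
      have hPidx : ¬ p ∣ P.relIndex (X ⊓ stab θ₀) := fun h => hidx (h.trans
        (Dvd.intro _ (Subgroup.relIndex_mul_relIndex P (X ⊓ stab θ₀) X hPT inf_le_left)))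
      obtain ⟨h1, h2, h3⟩ := map_conj_sylow (hXL hx) hLP hPT hP'T hpow hPidx
      obtain ⟨t, ht, hiff⟩ := exists_conj_of_sylow (inf_le_left.trans hXL) hLP h1 hPT hP'T hpow h2 hPidx h3
      rw [Subgroup.mem_inf] at ht
      refine ⟨t⁻¹ * x, Subgroup.mem_inf.2 ⟨mul_mem (inv_mem ht.1) hx,
        Subgroup.mem_normalizer_iff.2 fun y => ?_⟩, ?_⟩
      · rw [← hiff (t⁻¹ * x * y * (t⁻¹ * x)⁻¹),
          show t * (t⁻¹ * x * y * (t⁻¹ * x)⁻¹) * t⁻¹ = x * y * x⁻¹ by group]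
        exact (Subgroup.mem_map_iff_mem (f := (MulAut.conj x).toMonoidHom)
          (MulAut.conj x).injective).symm
      · rw [← cj_cj, mem_stab.1 (inv_mem ht.2), hxη]
  rw [Finset.sum_congr rfl fun θ hθ => by rw [hfilter θ hθ, Finset.card_eq_sum_ones, Finset.sum_mul]]
  simp only [one_mul]
  rw [Finset.sum_comm' (t' := S) (s' := fun χ => (theta p K L P ν).filter fun θ => mu K χ θ ≠ 0)
    (fun θ χ => by simp only [Finset.mem_filter]; tauto)]
  rw [Finset.sum_congr rfl horbit, Finset.sum_const, smul_eq_mul, cnt, mul_comm]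

end

end CfsgLib.RelMcKay
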