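import Mathlib
import Cfsg.Agent.Lib.RelMcKay.CliffordOn
import Cfsg.Agent.Lib.RelMcKay.ExtEquiv
import Cfsg.Agent.Lib.Clifford.Extension
import Cfsg.Agent.Lib.ZerosCodegree.RelDegreeGraph

/-!
# Extensions to a `p`-overgroup, parametrised by linear characters compatibly with a `p'`-group
-/

set_option autoImplicit false
set_option linter.style.haveILetI false
set_option linter.unusedSectionVars false

open scoped ComplexConjugate Pointwise
open Cfsg CfsgLib.CharTheory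

namespace CfsgLib.RelMcKay

noncomputable section

open scoped Classical

variable {G : Type*} [Group G] [Finite G] {p : ℕ} [hp : Fact p.Prime]

/-- Multiplication by a linear character of `H`. -/
def hmul {H : Subgroup G} (l : H →* ℂˣ) (f : G → ℂ) : G → ℂ :=
  fun x => if hx : x ∈ H then (l ⟨x, hx⟩ : ℂ) * f x else 0

theorem hmul_of_mem {H : Subgroup G} (l : H →* ℂˣ) (f : G → ℂ) {x : G} (hx : x ∈ H) :
    hmul l f x = (l ⟨x, hx⟩ : ℂ) * f x := dif_pos hx

theorem hmul_hmul {H : Subgroup G} (l m : H →* ℂˣ) (f : G → ℂ) :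
    hmul l (hmul m f) = hmul (l * m) f := by
  funext x
  by_cases hx : x ∈ H
  · rw [hmul_of_mem _ _ hx, hmul_of_mem _ _ hx, hmul_of_mem _ _ hx, MonoidHom.mul_apply,
      Units.val_mul, mul_assoc]
  · simp [hmul, hx]

/-- The linear characters of `A` trivial on `K`. -/
def trivOn (K A : Subgroup G) : Subgroup (A →* ℂˣ) where
  carrier := {l | ∀ x : A, (x : G) ∈ K → l x = 1}
  one_mem' := fun _ _ => rfl
  mul_mem' := fun {a b} ha hb x hx => by rw [MonoidHom.mul_apply, ha x hx, hb x hx, one_mul]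
  inv_mem' := fun {a} ha x hx => by rw [MonoidHom.inv_apply, ha x hx, inv_one]

theorem hmul_injective {K A : Subgroup G} (hKA : K ≤ A)
    (hAK : A ≤ Subgroup.normalizer (K : Set G)) {f θ : G → ℂ} (hf : IsIrrOn A f) (hθ : IsIrrOn K θ)
    (hres : ∀ x ∈ K, f x = θ x) {l m : A →* ℂˣ} (hl : l ∈ trivOn K A) (hm : m ∈ trivOn K A)
    (he : hmul l f = hmul m f) : l = m :=
  congrArg Subtype.val (mulLin_injective hAK hKA hf hθ hres (l := ⟨l, hl⟩) (m := ⟨m, hm⟩) he)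

theorem isIrrOn_hmul {K A : Subgroup G} {l : A →* ℂˣ} (hl : l ∈ trivOn K A) {f : G → ℂ}
    (hf : IsIrrOn A f) : IsIrrOn A (hmul l f) :=
  isIrrOn_mulLin ⟨l, hl⟩ hf

theorem hmul_res {K A : Subgroup G} (hKA : K ≤ A) {l : A →* ℂˣ} (hl : l ∈ trivOn K A) (f : G → ℂ)
    {x : G} (hx : x ∈ K) : hmul l f x = f x :=
  mulLin_one ⟨l, hl⟩ f hx (hKA hx)

theorem cj_hmul {A : Subgroup G} {r : G} (hr : r ∈ Subgroup.normalizer (A : Set G)) (l : A →* ℂˣ)
    (f : G → ℂ) : cj r (hmul l f) = hmul (l.comp (normConj A r hr).toMonoidHom) (cj r f) := by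
  funext x
  by_cases hx : x ∈ A
  · rw [cj_apply, hmul_of_mem _ _ ((mem_conj_iff hr x).2 hx), hmul_of_mem _ _ hx]
    rfl
  · simp [cj, hmul, hx, mem_conj_iff hr]

theorem trivOn_comp {K A : Subgroup G} {r : G} (hr : r ∈ Subgroup.normalizer (A : Set G))
    (hrK : r ∈ Subgroup.normalizer (K : Set G)) {l : A →* ℂˣ} (hl : l ∈ trivOn K A) :
    l.comp (normConj A r hr).toMonoidHom ∈ trivOn K A :=
  fun x hx => hl _ ((mem_conj_iff hrK (x : G)).2 hx)

theorem trivOn_pow {K A : Subgroup G} (hKA : K ≤ A) (hAK : A ≤ Subgroup.normalizer (K : Set G))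
    {l : A →* ℂˣ} (hl : l ∈ trivOn K A) : l ^ K.relIndex A = 1 := by
  refine MonoidHom.ext fun x => ?_
  rw [MonoidHom.pow_apply, ← map_pow, MonoidHom.one_apply]
  exact hl _ (by rw [Subgroup.coe_pow]; exact pow_relIndex_mem hKA hAK x.2)

/-- Two extensions differ by a linear character. -/
theorem exists_hmul_eq {K A : Subgroup G} (hKA : K ≤ A) (hAK : A ≤ Subgroup.normalizer (K : Set G))
    {θ f g : G → ℂ} (hθ : IsIrrOn K θ) (hf : IsIrrOn A f) (hfθ : ∀ x ∈ K, f x = θ x)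
    (hg : IsIrrOn A g) (hgθ : ∀ x ∈ K, g x = θ x) :
    ∃ l ∈ trivOn K A, g = hmul l f := by
  haveI : (K.subgroupOf A).Normal := (Subgroup.normal_subgroupOf_iff_le_normalizer hKA).2 hAK
  obtain ⟨l, hl1, hl⟩ := Clifford.exists_linFun_of_extensions (N := K.subgroupOf A)
    (θ := fun n => θ ((n : A) : G)) (isIrr_sub hKA hθ) hf.1 (fun n => hfθ _ n.2) hg.1
    (fun n => hgθ _ n.2)
  have hlt : l ∈ trivOn K A := fun x hx => hl1 ⟨x, hx⟩
  refine ⟨l, hlt, hg.ext (isIrrOn_hmul hlt hf) fun x hx => ?_⟩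
  rw [hmul_of_mem _ _ hx]
  exact congrFun hl ⟨x, hx⟩

/-- Gluing homomorphisms. -/
theorem exists_hom_glue {K P : Subgroup G} (hPK : P ≤ Subgroup.normalizer (K : Set G))
    (α : K →* ℂˣ) (β : P →* ℂˣ)
    (hagree : ∀ x (hK : x ∈ K) (hP : x ∈ P), α ⟨x, hK⟩ = β ⟨x, hP⟩)
    (hinv : ∀ y (hy : y ∈ P) k (hk : k ∈ K),
      α ⟨y * k * y⁻¹, (mem_conj_iff (hPK hy) k).2 hk⟩ = α ⟨k, hk⟩) :
    ∃ μ : (K ⊔ P : Subgroup G) →* ℂˣ,
      (∀ k (hk : k ∈ K), μ ⟨k, le_sup_left (b := P) hk⟩ = α ⟨k, hk⟩) ∧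
      ∀ y (hy : y ∈ P), μ ⟨y, le_sup_right (a := K) hy⟩ = β ⟨y, hy⟩ := by
  choose kf hkf yf hyf hxy using fun x : (K ⊔ P : Subgroup G) => mem_sup' hPK x.2
  have key : ∀ x : (K ⊔ P : Subgroup G), ∀ k (hk : k ∈ K) y (hy : y ∈ P), k * y = (x : G) →
      α ⟨kf x, hkf x⟩ * β ⟨yf x, hyf x⟩ = α ⟨k, hk⟩ * β ⟨y, hy⟩ := by
    intro x k hk y hy he
    have h1 : k⁻¹ * kf x = y * (yf x)⁻¹ := by
      rw [eq_mul_inv_iff_mul_eq, mul_assoc, hxy, ← he, inv_mul_cancel_left]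
    have h2K : k⁻¹ * kf x ∈ K := mul_mem (inv_mem hk) (hkf x)
    have h2P : k⁻¹ * kf x ∈ P := h1 ▸ mul_mem hy (inv_mem (hyf x))
    have h3 := hagree _ h2K h2P
    rw [show (⟨k⁻¹ * kf x, h2K⟩ : K) = ⟨k, hk⟩⁻¹ * ⟨kf x, hkf x⟩ from rfl,
      show (⟨k⁻¹ * kf x, h2P⟩ : P) = ⟨y, hy⟩ * ⟨yf x, hyf x⟩⁻¹ from Subtype.ext h1, map_mul, map_mul,
      map_inv, map_inv, inv_mul_eq_iff_eq_mul] at h3
    rw [h3, mul_assoc, mul_assoc, inv_mul_cancel, mul_one]
  refine ⟨MonoidHom.mk' (fun x => α ⟨kf x, hkf x⟩ * β ⟨yf x, hyf x⟩) (fun a b => ?_), fun k hk => ?_,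
    fun y hy => ?_⟩
  · have he : kf a * (yf a * kf b * (yf a)⁻¹) * (yf a * yf b) = ((a * b : (K ⊔ P : Subgroup G)) : G) := by
      rw [Subgroup.coe_mul, ← hxy a, ← hxy b]; group
    have hc := (mem_conj_iff (hPK (hyf a)) (kf b)).2 (hkf b)
    rw [key (a * b) _ (mul_mem (hkf a) hc) _ (mul_mem (hyf a) (hyf b)) he,
      show (⟨kf a * (yf a * kf b * (yf a)⁻¹), mul_mem (hkf a) hc⟩ : K) = ⟨kf a, hkf a⟩ * ⟨_, hc⟩ from rfl,
      show (⟨yf a * yf b, mul_mem (hyf a) (hyf b)⟩ : P) = ⟨yf a, hyf a⟩ * ⟨yf b, hyf b⟩ from rfl,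
      map_mul, map_mul, hinv (yf a) (hyf a) (kf b) (hkf b), mul_mul_mul_comm]
  · show α _ * β _ = _
    rw [key ⟨k, _⟩ k hk 1 (one_mem P) (mul_one k), show (⟨1, one_mem P⟩ : P) = 1 from rfl, map_one,
      mul_one]
  · show α _ * β _ = _
    rw [key ⟨y, _⟩ 1 (one_mem K) y hy (one_mul y), show (⟨1, one_mem K⟩ : K) = 1 from rfl, map_one,
      one_mul]

/-- The determinant commutes with pullback. -/
theorem detChar_comp {A B : Type*} [Group A] [Finite A] [Group B] [Finite B] (φ : B →* A) {χ : A → ℂ}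
    (h : IsCharacter A χ) (b : B) : detChar (fun b => χ (φ b)) b = detChar χ (φ b) := by
  obtain ⟨k, ρ, rfl⟩ := h
  let σ : Representation ℂ B (Fin k → ℂ) := ρ.comp φ
  rw [Clifford.detChar_eq σ (χ := fun b => ρ.character (φ b)) (funext fun _ => rfl),
    Clifford.detChar_eq ρ rfl, Clifford.linFun_apply, Clifford.linFun_apply, Clifford.detHom_apply,
    Clifford.detHom_apply]
  rfl

/-- **Extending over a `p`-overgroup is decided below.** -/
theorem extTo_sup_iff {L K P : Subgroup G} {θ ν : G → ℂ} (hLK : L ≤ K) (hLP : L ≤ P)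
    (hinf : K ⊓ P = L) (hKL : K ≤ Subgroup.normalizer (L : Set G))
    (hPL : P ≤ Subgroup.normalizer (L : Set G)) (hPK : P ≤ Subgroup.normalizer (K : Set G))
    (hpow : ∀ x ∈ P, ∃ a : ℕ, x ^ p ^ a ∈ L) (hθ : IsIrrOn K θ) (hν : IsIrrOn L ν)
    (hPθ : P ≤ stab θ) (hKν : K ≤ stab ν) (hd : ¬ p ∣ deg θ) (hm : mu L θ ν ≠ 0) :
    ExtTo K (K ⊔ P) θ ↔ ExtTo L P ν := by
  obtain ⟨hθν, huniq⟩ := res_eq_mul_of_invariant hLK hKL hν hKν hθ hm
  have hdeg : deg θ = mu L θ ν * deg ν := by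
    have h1 := hθν 1 (one_mem L)
    rw [hθ.isCharOn.apply_one, hν.isCharOn.apply_one] at h1
    exact_mod_cast h1
  constructor
  · rintro ⟨f, hf, hres⟩
    have hc : IsCharOn P f := hf.isCharOn.mono le_sup_right
    have hd' : deg f = deg θ := by
      have h1 := hres 1 (one_mem K)
      rw [hf.isCharOn.apply_one, hθ.isCharOn.apply_one] at h1
      exact_mod_cast h1
    have hsum : ((∑ u ∈ irrOn P, mu P f u * deg u : ℕ) : ZMod p) ≠ 0 := by
      rw [← deg_eq_sum hc, hd']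
      exact fun h => hd ((ZMod.natCast_eq_zero_iff _ _).1 h)
    rw [Nat.cast_sum] at hsum
    obtain ⟨u, hu, hu0⟩ := Finset.exists_ne_zero_of_sum_ne_zero hsum
    rw [mem_irrOn] at hu
    rw [Nat.cast_mul] at hu0
    have hmu : mu P f u ≠ 0 := fun h0 => hu0 (by rw [h0, Nat.cast_zero, zero_mul])
    have hdu : ¬ p ∣ deg u := fun h0 => hu0 (by rw [(ZMod.natCast_eq_zero_iff _ _).2 h0, mul_zero])
    obtain ⟨ω, hω, hmω⟩ := exists_mu_ne_zero (hu.isCharOn.mono hLP)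
      (by rw [hu.isCharOn.apply_one]; exact_mod_cast hu.deg_pos.ne')
    have hfω : mu L θ ω ≠ 0 := by
      rw [← mu_congr (f := f) (fun x hx => hres x (hLK hx)) (fun x _ => rfl)]
      intro h0
      rw [mu_trans hLP hc hω] at h0
      exact Nat.mul_ne_zero hmu hmω (Finset.sum_eq_zero_iff.1 h0 u (mem_irrOn.2 hu))
    obtain rfl := huniq ω hω hfω
    exact ⟨u, hu, (res_eq_of_pPow hLP hPL hu hω hmω hpow hdu).2⟩
  · rintro ⟨u, hu, hures⟩
    set e := mu L θ ν with he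
    obtain ⟨lK, hlK⟩ := Clifford.exists_detChar_eq hθ.isCharOn
    obtain ⟨lP, hlP⟩ := Clifford.exists_detChar_eq hu.isCharOn
    obtain ⟨lL, hlL⟩ := Clifford.exists_detChar_eq hν.isCharOn
    have hagree : ∀ x (hK : x ∈ K) (hP : x ∈ P), lK ⟨x, hK⟩ = (lP ^ e) ⟨x, hP⟩ := by
      intro x hK hP
      have hxL : x ∈ L := hinf ▸ ⟨hK, hP⟩
      have h1 := detChar_comp (Subgroup.inclusion hLK) hθ.isCharOn ⟨x, hxL⟩
      have h2 := detChar_comp (Subgroup.inclusion hLP) hu.isCharOn ⟨x, hxL⟩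
      rw [show (fun b : L => u (Subgroup.inclusion hLP b : G)) = fun b : L => ν b from
        funext fun b => hures b b.2] at h2
      rw [show (fun b : L => θ (Subgroup.inclusion hLK b : G)) =
        ∑ _i ∈ Finset.range e, fun b : L => ν b from funext fun b => by
          rw [Finset.sum_apply, Finset.sum_const, Finset.card_range, nsmul_eq_mul]
          exact hθν b b.2,
        (ZerosCodegree.RelGraph.detChar_sum (Finset.range e) (fun _ => fun b : L => ν b)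
          (fun _ _ => hν.isCharOn) ⟨x, hxL⟩).2, Finset.prod_const, Finset.card_range, h2] at h1
      rw [hlK, hlP, Clifford.linFun_apply, Clifford.linFun_apply] at h1
      refine Units.ext ?_
      rw [MonoidHom.pow_apply, Units.val_pow_eq_pow_val]
      exact h1.symm
    have hinv : ∀ y (hy : y ∈ P) k (hk : k ∈ K),
        lK ⟨y * k * y⁻¹, (mem_conj_iff (hPK hy) k).2 hk⟩ = lK ⟨k, hk⟩ := by
      intro y hy k hk
      have h1 := detChar_comp (normConj K y (hPK hy)).toMonoidHom hθ.isCharOn ⟨k, hk⟩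
      rw [show (fun b : K => θ ((normConj K y (hPK hy)).toMonoidHom b : G)) = fun b : K => θ b from
        funext fun b => congrFun (mem_stab.1 (hPθ hy)) b, hlK, Clifford.linFun_apply,
        Clifford.linFun_apply] at h1
      exact (Units.ext h1).symm
    obtain ⟨μ, hμK, -⟩ := exists_hom_glue hPK lK (lP ^ e) hagree hinv
    haveI : (K.subgroupOf (K ⊔ P)).Normal :=
      (Subgroup.normal_subgroupOf_iff_le_normalizer le_sup_left).2 (sup_le Subgroup.le_normalizer hPK)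
    have hθ' : IsIrrCharacter (K.subgroupOf (K ⊔ P)) (fun n => θ ((n : (K ⊔ P : Subgroup G)) : G)) :=
      isIrr_sub le_sup_left hθ
    have hcop : Nat.Coprime (K.subgroupOf (K ⊔ P)).index (deg θ) := by
      obtain ⟨n, hn⟩ := exists_relIndex_eq_pow hLP hPL hpow
      rw [← Subgroup.relIndex, relIndex_sup' hPK, ← Subgroup.inf_relIndex_right K P, hinf, hn]
      exact (hp.out.coprime_iff_not_dvd.2 hd).pow_left n
    obtain ⟨χ, hχ, hχθ⟩ := Clifford.exists_extension_of_det hθ' (fun g n => by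
        show θ ((g : G) * ((n : (K ⊔ P : Subgroup G)) : G) * (g : G)⁻¹) = _
        exact congrFun (mem_stab.1 (sup_le hθ.le_stab hPθ g.2)) _)
      (d := deg θ) (by
        show θ 1 = _
        exact hθ.isCharOn.apply_one) hcop μ (fun n => by
        have h1 := detChar_comp (Subgroup.subgroupOfEquivOfLe (le_sup_left (a := K) (b := P))).toMonoidHom
          hθ.isCharOn n
        rw [hlK, Clifford.linFun_apply] at h1
        refine Eq.trans ?_ h1.symm
        exact congrArg Units.val (hμK _ n.2))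
    exact ⟨extendByZero _ χ, isIrrOn_extend hχ, fun x hx =>
      (Frobenius.extendByZero_of_mem _ _ (le_sup_left (b := P) hx)).trans
        (hχθ ⟨⟨x, le_sup_left (b := P) hx⟩, hx⟩)⟩

/-- A group of `p'`-image fixes some extension over a `p`-overgroup. -/
theorem exists_fixed_ext {K A C R : Subgroup G} (hKA : K ≤ A)
    (hAK : A ≤ Subgroup.normalizer (K : Set G)) (hpow : ∀ x ∈ A, ∃ a : ℕ, x ^ p ^ a ∈ K)
    (hRA : R ≤ Subgroup.normalizer (A : Set G)) (hRK : R ≤ Subgroup.normalizer (K : Set G))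
    (hCR : C ≤ R) (hRC : R ≤ Subgroup.normalizer (C : Set G)) (hCA : C ≤ A)
    (hidx : ¬ p ∣ C.relIndex R) {θ : G → ℂ} (hθ : IsIrrOn K θ) (hRθ : R ≤ stab θ)
    (hext : ExtTo K A θ) : ∃ f, IsIrrOn A f ∧ (∀ x ∈ K, f x = θ x) ∧ R ≤ stab f := by
  obtain ⟨f, hf, hfθ⟩ := hext
  have hres : ∀ r : R, ∀ x ∈ K, cj (r : G) f x = θ x := fun r x hx =>
    (hfθ _ ((mem_conj_iff (hRK r.2) x).2 hx)).trans (congrFun (mem_stab.1 (hRθ r.2)) x)
  choose lam hlamT hlam using fun r : R =>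
    exists_hmul_eq hKA hAK hθ hf hfθ (hf.cj (hRA r.2)) (hres r)
  have huniq : ∀ r : R, ∀ l ∈ trivOn K A, cj (r : G) f = hmul l f → lam r = l := fun r l hl he =>
    hmul_injective hKA hAK hf hθ hfθ (hlamT r) hl ((hlam r).symm.trans he)
  let φ : ∀ _a : R, A →* A := fun a => (normConj A (a : G) (hRA a.2)).toMonoidHom
  have hcoc : ∀ b a : R, lam (b * a) = (lam b).comp (φ a) * lam a := by
    intro b a
    refine huniq _ _ (mul_mem (trivOn_comp (hRA a.2) (hRK a.2) (hlamT b)) (hlamT a)) ?_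
    rw [Subgroup.coe_mul, ← cj_cj, hlam b, cj_hmul (hRA a.2), hlam a, hmul_hmul]
  have hC : ∀ r c : R, (c : G) ∈ C → lam (r * c) = lam r := by
    intro r c hc
    refine huniq _ _ (hlamT r) ?_
    rw [Subgroup.coe_mul, ← cj_cj, hlam r]
    exact mem_stab.1 ((isIrrOn_hmul (hlamT r) hf).le_stab (hCA hc))
  haveI : (C.subgroupOf R).Normal := (Subgroup.normal_subgroupOf_iff_le_normalizer hCR).2 hRC
  haveI := Fintype.ofFinite (R ⧸ C.subgroupOf R)
  let Λ : R ⧸ C.subgroupOf R → (A →* ℂˣ) := fun q => lam q.out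
  have hΛ : ∀ r : R, Λ r = lam r := by
    intro r
    obtain ⟨c, hc⟩ := QuotientGroup.mk_out_eq_mul (C.subgroupOf R) r
    show lam _ = _
    rw [hc]
    exact hC r c c.2
  set μ := ∏ q, Λ q with hμ
  set m := C.relIndex R with hm
  have hμT : μ ∈ trivOn K A := Subgroup.prod_mem _ fun q _ => hlamT _
  have htrans : ∀ a : R, μ = μ.comp (φ a) * lam a ^ m := by
    intro a
    conv_lhs => rw [hμ, ← Equiv.prod_comp (Equiv.mulRight (a : R ⧸ C.subgroupOf R)) Λ]
    have h1 : ∀ q : R ⧸ C.subgroupOf R, Λ (q * a) = (Λ q).comp (φ a) * lam a := by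
      intro q
      obtain ⟨b, rfl⟩ := QuotientGroup.mk_surjective q
      rw [← QuotientGroup.mk_mul, hΛ, hΛ, hcoc]
    simp only [Equiv.coe_mulRight]
    rw [Finset.prod_congr rfl fun q _ => h1 q, Finset.prod_mul_distrib, Finset.prod_const,
      Finset.card_univ, ← Nat.card_eq_fintype_card, hm, Subgroup.relIndex, Subgroup.index_eq_card]
    congr 1
    refine MonoidHom.ext fun x => ?_
    rw [MonoidHom.comp_apply, hμ, MonoidHom.finsetProd_apply, MonoidHom.finsetProd_apply]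
    rfl
  obtain ⟨k, hk⟩ := exists_relIndex_eq_pow hKA hAK hpow
  have hcop : Nat.Coprime (K.relIndex A) m := by
    rw [hk]; exact (hp.out.coprime_iff_not_dvd.2 hidx).pow_left k
  obtain ⟨t, ht⟩ := Clifford.exists_pow_eq_of_coprime (A := A →* ℂˣ) hcop (trivOn_pow hKA hAK hμT)
  set ν0 := μ ^ t with hν0
  have hν0T : ν0 ∈ trivOn K A := zpow_mem hμT t
  refine ⟨hmul ν0 f, isIrrOn_hmul hν0T hf, fun x hx => (hmul_res hKA hν0T f hx).trans (hfθ x hx),
    fun a ha => mem_stab.2 ?_⟩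
  rw [cj_hmul (hRA ha), hlam ⟨a, ha⟩, hmul_hmul]
  congr 1
  refine Clifford.eq_of_pow_coprime (A := A →* ℂˣ) hcop ?_ ?_
  · exact trivOn_pow hKA hAK (div_mem (mul_mem (trivOn_comp (hRA ha) (hRK ha) hν0T) (hlamT ⟨a, ha⟩)) hν0T)
  · rw [show ∀ l l' : A →* ℂˣ, (l * l') ^ m = l ^ m * l' ^ m from fun l l' => mul_pow l l' m]
    have h1 : (ν0.comp (φ ⟨a, ha⟩)) ^ m = (ν0 ^ m).comp (φ ⟨a, ha⟩) := MonoidHom.ext fun x => by simp
    rw [show (ν0.comp (normConj A a (hRA ha)).toMonoidHom) ^ m = (ν0 ^ m).comp (φ ⟨a, ha⟩) from h1, ht]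
    exact (htrans ⟨a, ha⟩).symm

/-- **The extensions are parametrised by the linear characters below, compatibly.** -/
theorem exists_param {L K P C R : Subgroup G} (hLP : L ≤ P) (hinf : K ⊓ P = L)
    (hPK : P ≤ Subgroup.normalizer (K : Set G)) (hpow : ∀ x ∈ P, ∃ a : ℕ, x ^ p ^ a ∈ L)
    (hRP : R ≤ Subgroup.normalizer (P : Set G)) (hRK : R ≤ Subgroup.normalizer (K : Set G))
    (hCR : C ≤ R) (hRC : R ≤ Subgroup.normalizer (C : Set G)) (hCK : C ≤ K)
    (hidx : ¬ p ∣ C.relIndex R) {θ : G → ℂ} (hθ : IsIrrOn K θ) (hRθ : R ≤ stab θ)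
    (hext : ExtTo K (K ⊔ P) θ) :
    ∃ Φ : Lin L P → G → ℂ, Function.Injective Φ ∧
      (∀ η, IsIrrOn (K ⊔ P) η ∧ (∀ x ∈ K, η x = θ x) ↔ ∃ l, Φ l = η) ∧
      ∀ l : Lin L P, ∀ r ∈ R, (r ∈ stab (Φ l) ↔
        ∀ x y : P, r * (x : G) * r⁻¹ = (y : G) → l.1 y = l.1 x) := by
  set A := K ⊔ P with hA
  have hAK : A ≤ Subgroup.normalizer (K : Set G) := sup_le Subgroup.le_normalizer hPK
  have hRA : R ≤ Subgroup.normalizer (A : Set G) := fun r hr => by
    have h1 : ∀ r, r ∈ Subgroup.normalizer (K : Set G) → r ∈ Subgroup.normalizer (P : Set G) →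
        ∀ x ∈ A, r * x * r⁻¹ ∈ A := fun r hr hr' x hx => by
      obtain ⟨k, hk, y, hy, rfl⟩ := mem_sup' hPK hx
      rw [show r * (k * y) * r⁻¹ = (r * k * r⁻¹) * (r * y * r⁻¹) by group]
      exact mul_mem (le_sup_left (b := P) ((mem_conj_iff hr k).2 hk))
        (le_sup_right (a := K) ((mem_conj_iff hr' y).2 hy))
    refine Subgroup.mem_normalizer_iff.2 fun x => ⟨h1 r (hRK hr) (hRP hr) x, fun hx => ?_⟩
    have := h1 r⁻¹ (inv_mem (hRK hr)) (inv_mem (hRP hr)) _ hx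
    simpa [mul_assoc] using this
  have hApow : ∀ x ∈ A, ∃ a : ℕ, x ^ p ^ a ∈ K := by
    intro x hx
    haveI : (K.subgroupOf A).Normal := (Subgroup.normal_subgroupOf_iff_le_normalizer le_sup_left).2 hAK
    obtain ⟨k, hk, y, hy, rfl⟩ := mem_sup' hPK hx
    obtain ⟨a, ha⟩ := hpow y hy
    refine ⟨a, ?_⟩
    have h2 : ((QuotientGroup.mk (⟨k * y, mul_mem (le_sup_left (b := P) hk) (le_sup_right (a := K) hy)⟩ : A) :
        A ⧸ K.subgroupOf A)) = QuotientGroup.mk ⟨y, le_sup_right (a := K) hy⟩ := by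
      rw [eq_comm, QuotientGroup.eq, Subgroup.mem_subgroupOf]
      show y⁻¹ * (k * y) ∈ K
      have := (mem_conj_iff (hPK (inv_mem hy)) k).2 hk
      simpa [mul_assoc] using this
    have h3 := congrArg (· ^ p ^ a) h2
    simp only [← QuotientGroup.mk_pow] at h3
    rw [(QuotientGroup.eq_one_iff (N := K.subgroupOf A)
      ((⟨y, le_sup_right (a := K) hy⟩ : A) ^ p ^ a)).2 (Subgroup.mem_subgroupOf.2 (by
        rw [Subgroup.coe_pow]; exact (hinf ▸ ha : y ^ p ^ a ∈ K ⊓ P).1)),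
      QuotientGroup.eq_one_iff, Subgroup.mem_subgroupOf, Subgroup.coe_pow] at h3
    exact h3
  obtain ⟨f, hf, hfθ, hRf⟩ := exists_fixed_ext le_sup_left hAK hApow hRA hRK hCR hRC
    (hCK.trans le_sup_left) hidx hθ hRθ hext
  -- restriction of linear characters
  let res : Lin K A → Lin L P := fun l =>
    ⟨l.1.comp (Subgroup.inclusion le_sup_right), fun x hx => l.2 _ ((hinf ▸ hx : (x : G) ∈ K ⊓ P).1)⟩
  have hLK : L ≤ K := hinf ▸ inf_le_left
  have hinj : Function.Injective res := by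
    intro l m h
    exact lin_restrict_injective (A := K) (C := L) (R := P) hLK hPK
      (Subtype.ext (congrArg Subtype.val h))
  have hsurj : Function.Surjective res := by
    intro l
    obtain ⟨μ, hμK, hμP⟩ := exists_hom_glue hPK (1 : K →* ℂˣ) l.1
      (fun x hK hP => (l.2 ⟨x, hP⟩ (hinf ▸ Subgroup.mem_inf.2 ⟨hK, hP⟩ : x ∈ L)).symm)
      (fun y hy k hk => rfl)
    exact ⟨⟨μ, fun x hx => hμK x hx⟩, Subtype.ext (MonoidHom.ext fun y => hμP y y.2)⟩
  let E := Equiv.ofBijective res ⟨hinj, hsurj⟩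
  refine ⟨fun l => hmul (E.symm l).1 f, fun l m h => ?_, fun η => ⟨fun hη => ?_, ?_⟩, fun l r hr => ?_⟩
  · exact E.symm.injective (Subtype.ext (hmul_injective le_sup_left hAK hf hθ hfθ (E.symm l).2 (E.symm m).2 h))
  · obtain ⟨μ, hμ, he⟩ := exists_hmul_eq le_sup_left hAK hθ hf hfθ hη.1 hη.2
    exact ⟨E ⟨μ, hμ⟩, by rw [he]; show hmul (E.symm (E ⟨μ, hμ⟩)).1 f = _; rw [Equiv.symm_apply_apply]⟩
  · rintro ⟨l, rfl⟩
    exact ⟨isIrrOn_hmul (E.symm l).2 hf, fun x hx =>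
      (hmul_res le_sup_left (E.symm l).2 f hx).trans (hfθ x hx)⟩
  · have hl : l = res (E.symm l) := (E.apply_symm_apply l).symm
    set μ := E.symm l with hμ
    rw [mem_stab]
    show cj r (hmul μ.1 f) = hmul μ.1 f ↔ _
    rw [cj_hmul (hRA hr), mem_stab.1 (hRf hr), hl]
    constructor
    · intro h x y hxy
      have h1 := hmul_injective le_sup_left hAK hf hθ hfθ (trivOn_comp (hRA hr) (hRK hr) μ.2) μ.2 h
      refine Eq.trans ?_ (DFunLike.congr_fun h1 (Subgroup.inclusion le_sup_right x))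
      show μ.1 _ = μ.1 _
      exact congrArg μ.1 (Subtype.ext hxy.symm)
    · intro h
      congr 1
      refine MonoidHom.ext fun a => ?_
      obtain ⟨k, hk, y, hy, e⟩ := mem_sup' hPK a.2
      have ha : a = ⟨k, le_sup_left (b := P) hk⟩ * ⟨y, le_sup_right (a := K) hy⟩ := Subtype.ext e.symm
      rw [ha, map_mul, map_mul, μ.2 ⟨k, le_sup_left (b := P) hk⟩ hk,
        (trivOn_comp (hRA hr) (hRK hr) μ.2) ⟨k, le_sup_left (b := P) hk⟩ hk]
      congr 1
      exact h ⟨y, hy⟩ ⟨r * y * r⁻¹, (mem_conj_iff (hRP hr) y).2 hy⟩ rfl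

end

end CfsgLib.RelMcKay
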