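import Mathlib
import Cfsg.Agent.Lib.RelMcKay.ExtBij
import Cfsg.Agent.Lib.PSolvable.Basic

/-!
# The relative count of characters of degree prime to `p` in a `p`-solvable group
-/

set_option autoImplicit false
set_option linter.style.haveILetI false
set_option linter.unusedSectionVars false

open scoped ComplexConjugate Pointwise
open Cfsg CfsgLib.CharTheory

namespace CfsgLib.RelMcKay

noncomputable section

open scoped Classical

variable {G : Type*} [Group G] [Finite G] {p : ℕ} [hp : Fact p.Prime]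

theorem mem_of_coprime_pow {H : Subgroup G} {x : G} {m n : ℕ} (hcop : Nat.Coprime m n)
    (hm : x ^ m ∈ H) (hn : x ^ n ∈ H) : x ∈ H := by
  have h := Nat.gcd_eq_gcd_ab m n
  rw [hcop, Nat.cast_one] at h
  rw [← zpow_one x, h, zpow_add, zpow_mul, zpow_natCast, zpow_mul, zpow_natCast]
  exact mul_mem (zpow_mem hm _) (zpow_mem hn _)

/-- Membership of elements of `p'`-image and `p`-image. -/
theorem mem_of_pow_pair {H L R : Subgroup G} (hLR : L ≤ R) (hRL : R ≤ Subgroup.normalizer (L : Set G))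
    (hidx : ¬ p ∣ L.relIndex R) (hLH : L ≤ H) {x : G} (hx : x ∈ R) {a : ℕ} (ha : x ^ p ^ a ∈ H) :
    x ∈ H :=
  mem_of_coprime_pow ((hp.out.coprime_iff_not_dvd.2 hidx).pow_left a) ha
    (hLH (pow_relIndex_mem hLR hRL hx))

theorem mem_normalizer_sup {K P : Subgroup G} (hPK : P ≤ Subgroup.normalizer (K : Set G)) {n : G}
    (hn : n ∈ Subgroup.normalizer (K : Set G)) (hn' : n ∈ Subgroup.normalizer (P : Set G)) :
    n ∈ Subgroup.normalizer ((K ⊔ P : Subgroup G) : Set G) := by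
  have h1 : ∀ r, r ∈ Subgroup.normalizer (K : Set G) → r ∈ Subgroup.normalizer (P : Set G) →
      ∀ x ∈ K ⊔ P, r * x * r⁻¹ ∈ K ⊔ P := fun r hr hr' x hx => by
    obtain ⟨k, hk, y, hy, rfl⟩ := mem_sup' hPK hx
    rw [show r * (k * y) * r⁻¹ = (r * k * r⁻¹) * (r * y * r⁻¹) by group]
    exact mul_mem (le_sup_left (b := P) ((mem_conj_iff hr k).2 hk))
      (le_sup_right (a := K) ((mem_conj_iff hr' y).2 hy))
  refine Subgroup.mem_normalizer_iff.2 fun x => ⟨h1 n hn hn' x, fun hx => ?_⟩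
  have := h1 n⁻¹ (inv_mem hn) (inv_mem hn') _ hx
  simpa [mul_assoc] using this

theorem pow_mem_sup {L K P : Subgroup G} (hLK : L ≤ K) (hPK : P ≤ Subgroup.normalizer (K : Set G))
    (hpow : ∀ x ∈ P, ∃ a : ℕ, x ^ p ^ a ∈ L) : ∀ x ∈ K ⊔ P, ∃ a : ℕ, x ^ p ^ a ∈ K := by
  intro x hx
  haveI : (K.subgroupOf (K ⊔ P)).Normal := (Subgroup.normal_subgroupOf_iff_le_normalizer le_sup_left).2
    (sup_le Subgroup.le_normalizer hPK)
  obtain ⟨k, hk, y, hy, rfl⟩ := mem_sup' hPK hx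
  obtain ⟨a, ha⟩ := hpow y hy
  refine ⟨a, ?_⟩
  have h2 : (QuotientGroup.mk (⟨k * y, hx⟩ : (K ⊔ P : Subgroup G)) :
      (K ⊔ P : Subgroup G) ⧸ K.subgroupOf (K ⊔ P)) = QuotientGroup.mk ⟨y, le_sup_right (a := K) hy⟩ := by
    rw [eq_comm, QuotientGroup.eq, Subgroup.mem_subgroupOf]
    show y⁻¹ * (k * y) ∈ K
    have := (mem_conj_iff (hPK (inv_mem hy)) k).2 hk
    simpa [mul_assoc] using this
  have h3 := congrArg (· ^ p ^ a) h2
  simp only [← QuotientGroup.mk_pow] at h3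
  rw [(QuotientGroup.eq_one_iff (N := K.subgroupOf (K ⊔ P))
    ((⟨y, le_sup_right (a := K) hy⟩ : (K ⊔ P : Subgroup G)) ^ p ^ a)).2 (Subgroup.mem_subgroupOf.2 (by
      rw [Subgroup.coe_pow]; exact hLK ha)),
    QuotientGroup.eq_one_iff, Subgroup.mem_subgroupOf, Subgroup.coe_pow] at h3
  exact h3

/-- The Frattini argument modulo a normal subgroup. -/
theorem frattini {L A X P : Subgroup G} (hXA : X ≤ Subgroup.normalizer (A : Set G))
    (hXL : X ≤ Subgroup.normalizer (L : Set G)) (hLP : L ≤ P) (hPA : P ≤ A) (hAX : A ≤ X)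
    (hpow : ∀ x ∈ P, ∃ a : ℕ, x ^ p ^ a ∈ L) (hidx : ¬ p ∣ P.relIndex X) {x : G} (hx : x ∈ X) :
    ∃ t ∈ A, t⁻¹ * x ∈ X ⊓ Subgroup.normalizer (P : Set G) := by
  have hP'A : P.map (MulAut.conj x).toMonoidHom ≤ A := by
    rintro _ ⟨y, hy, rfl⟩
    exact (mem_conj_iff (hXA hx) y).2 (hPA hy)
  have hPidx : ¬ p ∣ P.relIndex A := fun h => hidx (h.trans
    (Dvd.intro _ (Subgroup.relIndex_mul_relIndex P A X hPA hAX)))
  obtain ⟨h1, h2, h3⟩ := map_conj_sylow (hXL hx) hLP hPA hP'A hpow hPidx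
  obtain ⟨t, ht, hiff⟩ := exists_conj_of_sylow (hAX.trans hXL) hLP h1 hPA hP'A hpow h2 hPidx h3
  refine ⟨t, ht, Subgroup.mem_inf.2 ⟨mul_mem (inv_mem (hAX ht)) hx,
    Subgroup.mem_normalizer_iff.2 fun y => ?_⟩⟩
  rw [← hiff (t⁻¹ * x * y * (t⁻¹ * x)⁻¹),
    show t * (t⁻¹ * x * y * (t⁻¹ * x)⁻¹) * t⁻¹ = x * y * x⁻¹ by group]
  exact (Subgroup.mem_map_iff_mem (f := (MulAut.conj x).toMonoidHom) (MulAut.conj x).injective).symm

/-- Schur–Zassenhaus modulo a normal subgroup. -/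
theorem exists_complement {L P N : Subgroup G} (hLP : L ≤ P) (hPN : P ≤ N)
    (hNL : N ≤ Subgroup.normalizer (L : Set G)) (hNP : N ≤ Subgroup.normalizer (P : Set G))
    (hpow : ∀ x ∈ P, ∃ a : ℕ, x ^ p ^ a ∈ L) (hidx : ¬ p ∣ P.relIndex N) :
    ∃ R : Subgroup G, L ≤ R ∧ R ≤ N ∧ R ⊓ P = L ∧ P ⊔ R = N ∧ ¬ p ∣ L.relIndex R := by
  haveI : (L.subgroupOf N).Normal :=
    (Subgroup.normal_subgroupOf_iff_le_normalizer (hLP.trans hPN)).2 hNL
  haveI : (P.subgroupOf N).Normal := (Subgroup.normal_subgroupOf_iff_le_normalizer hPN).2 hNP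
  set π := QuotientGroup.mk' (L.subgroupOf N) with hπ
  have hker : π.ker ≤ P.subgroupOf N := by
    rw [hπ, QuotientGroup.ker_mk']; exact Subgroup.comap_mono hLP
  set Pb := (P.subgroupOf N).map π with hPb
  haveI : Pb.Normal := Subgroup.Normal.map inferInstance π (QuotientGroup.mk'_surjective _)
  have hPbp : IsPGroup p Pb := by
    rintro ⟨_, x, hx, rfl⟩
    obtain ⟨a, ha⟩ := hpow _ (Subgroup.mem_subgroupOf.1 hx)
    refine ⟨a, Subtype.ext ?_⟩
    rw [Subgroup.coe_pow, Subgroup.coe_one, ← map_pow, hπ, QuotientGroup.mk'_apply,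
      QuotientGroup.eq_one_iff, Subgroup.mem_subgroupOf, Subgroup.coe_pow]
    exact ha
  have hPbi : Pb.index = P.relIndex N :=
    Subgroup.index_map_eq _ (QuotientGroup.mk'_surjective _) hker
  obtain ⟨n, hn⟩ := IsPGroup.iff_card.1 hPbp
  obtain ⟨H, hH⟩ := Subgroup.exists_right_complement'_of_coprime (N := Pb)
    (by rw [hn, hPbi]; exact (hp.out.coprime_iff_not_dvd.2 hidx).pow_left n)
  set R := (H.comap π).map N.subtype with hR
  have hRN : R ≤ N := Subgroup.map_subtype_le _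
  have hmem : ∀ (x : G) (hx : x ∈ N), x ∈ R ↔ π ⟨x, hx⟩ ∈ H := fun x hx => by
    constructor
    · rintro ⟨⟨y, hy⟩, hy', rfl⟩
      exact hy'
    · exact fun h => ⟨⟨x, hx⟩, h, rfl⟩
  have hmemP : ∀ (x : G) (hx : x ∈ N), π ⟨x, hx⟩ ∈ Pb ↔ x ∈ P := fun x hx => by
    rw [hPb, ← Subgroup.mem_comap, Subgroup.comap_map_eq_self hker, Subgroup.mem_subgroupOf]
  have hmemL : ∀ (x : G) (hx : x ∈ N), π ⟨x, hx⟩ = 1 ↔ x ∈ L := fun x hx => by
    rw [hπ, QuotientGroup.mk'_apply, QuotientGroup.eq_one_iff, Subgroup.mem_subgroupOf]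
  have hLR : L ≤ R := fun l hl => (hmem l (hPN (hLP hl))).2 (by
    rw [(hmemL l (hPN (hLP hl))).2 hl]; exact one_mem H)
  have hRP : R ⊓ P = L := by
    refine le_antisymm (fun x hx => ?_) (le_inf hLR hLP)
    have hxN := hRN hx.1
    exact (hmemL x hxN).1 (Subgroup.disjoint_def.1 hH.disjoint ((hmemP x hxN).2 hx.2)
      ((hmem x hxN).1 hx.1))
  have hsup : P ⊔ R = N := by
    refine le_antisymm (sup_le hPN hRN) fun x hx => ?_
    obtain ⟨a, ha, b, hb, hab⟩ : ∃ a ∈ Pb, ∃ b ∈ H, a * b = π ⟨x, hx⟩ := by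
      obtain ⟨⟨⟨a, ha⟩, ⟨b, hb⟩⟩, hab⟩ := (hH : Subgroup.IsComplement (Pb : Set _) (H : Set _)).2 (π ⟨x, hx⟩)
      exact ⟨a, ha, b, hb, hab⟩
    obtain ⟨y, hy, rfl⟩ := ha
    have hr : (y : G)⁻¹ * x ∈ R := by
      refine (hmem _ (mul_mem (inv_mem y.2) hx)).2 ?_
      rw [show (⟨(y : G)⁻¹ * x, mul_mem (inv_mem y.2) hx⟩ : N) = y⁻¹ * ⟨x, hx⟩ from rfl, map_mul,
        map_inv, ← hab, inv_mul_cancel_left]
      exact hb
    have := mul_mem (le_sup_left (b := R) (Subgroup.mem_subgroupOf.1 hy)) (le_sup_right (a := P) hr)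
    rwa [mul_inv_cancel_left] at this
  refine ⟨R, hLR, hRN, hRP, hsup, fun hd => hidx ?_⟩
  rw [← hsup, relIndex_sup' (hRN.trans hNP), ← Subgroup.inf_relIndex_right P R, inf_comm, hRP]
  exact hd

/-- Characters of `K ⊔ P` of degree prime to `p` are extensions. -/
theorem mem_theta_sup_iff {L K P : Subgroup G} (hLK : L ≤ K) (hPK : P ≤ Subgroup.normalizer (K : Set G))
    (hpow : ∀ x ∈ P, ∃ a : ℕ, x ^ p ^ a ∈ L) {ν η : G → ℂ} :
    η ∈ theta p (K ⊔ P) L P ν ↔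
      ∃ θ ∈ theta p K L P ν, IsIrrOn (K ⊔ P) η ∧ ∀ x ∈ K, η x = θ x := by
  constructor
  · intro hη
    rw [mem_theta] at hη
    obtain ⟨⟨hηi, hην⟩, -, hηd⟩ := hη
    obtain ⟨θ, hθ, hm⟩ := exists_mu_ne_zero (hηi.isCharOn.mono (le_sup_left (a := K) (b := P)))
      (by rw [hηi.isCharOn.apply_one]; exact_mod_cast hηi.deg_pos.ne')
    obtain ⟨hs, hres⟩ := res_eq_of_pPow le_sup_left (sup_le Subgroup.le_normalizer hPK) hηi hθ hm
      (pow_mem_sup hLK hPK hpow) hηd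
    have hd : deg η = deg θ := by
      have h1 := hres 1 (one_mem K)
      rw [hηi.isCharOn.apply_one, hθ.isCharOn.apply_one] at h1
      exact_mod_cast h1
    exact ⟨θ, mem_theta.2 ⟨⟨hθ, by rwa [← mu_congr (f := η) (fun x hx => hres x (hLK hx)) (fun x _ => rfl)]⟩,
      le_sup_right.trans hs, hd ▸ hηd⟩, hηi, hres⟩
  · rintro ⟨θ, hθ, hηi, hres⟩
    rw [mem_theta] at hθ
    obtain ⟨⟨hθi, hθν⟩, -, hθd⟩ := hθ
    have hd : deg η = deg θ := by
      have h1 := hres 1 (one_mem K)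
      rw [hηi.isCharOn.apply_one, hθi.isCharOn.apply_one] at h1
      exact_mod_cast h1
    exact mem_theta.2 ⟨⟨hηi, by rwa [mu_congr (f' := θ) (fun x hx => hres x (hLK hx)) (fun x _ => rfl)]⟩,
      le_sup_right.trans hηi.le_stab, hd ▸ hθd⟩

/-- One term of the split formula. -/
theorem cnt_term {X A K R : Subgroup G} (hX : A ⊔ R = X) (hKA : K ≤ A)
    (hRA : R ≤ Subgroup.normalizer (A : Set G)) (hRK : R ≤ Subgroup.normalizer (K : Set G))
    (hinf : R ⊓ A ≤ K) (hidx : ¬ p ∣ A.relIndex X) {η θ : G → ℂ} (hη : IsIrrOn A η)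
    (hθ : IsIrrOn K θ) (hres : ∀ x ∈ K, η x = θ x) (hd : ¬ p ∣ deg η) :
    cnt p X A η = (overIrr (K ⊔ R ⊓ stab η) K θ).card := by
  have hAX : A ≤ X := hX ▸ le_sup_left
  have hXA : X ≤ Subgroup.normalizer (A : Set G) := hX ▸ sup_le Subgroup.le_normalizer hRA
  have hT : X ⊓ stab η = A ⊔ R ⊓ stab η := by
    refine le_antisymm (fun x hx => ?_) (sup_le (le_inf hAX hη.le_stab)
      (le_inf (inf_le_left.trans (hX ▸ le_sup_right)) inf_le_right))
    obtain ⟨a, ha, r, hr, rfl⟩ := mem_sup' hRA (hX.symm ▸ hx.1 : _ ∈ A ⊔ R)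
    have hrs : r ∈ stab η := by
      have := mul_mem (inv_mem (hη.le_stab ha)) hx.2
      rwa [inv_mul_cancel_left] at this
    exact mul_mem (le_sup_left (b := R ⊓ stab η) ha)
      (le_sup_right (a := A) (Subgroup.mem_inf.2 ⟨hr, hrs⟩))
  have hm := Subgroup.relIndex_mul_relIndex A (X ⊓ stab η) X (le_inf hAX hη.le_stab) inf_le_left
  rw [cnt_inertia hAX hXA hη (fun h => hidx (h.trans (Dvd.intro_left _ hm))),
    cnt_eq_card (le_inf hAX hη.le_stab) (inf_le_left.trans hXA) hη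
      (fun h => hidx (h.trans (Dvd.intro _ hm))) hd, hT]
  exact card_overIrr_restrict hKA (inf_le_left.trans hRA) (inf_le_left.trans hRK)
    ((inf_le_inf_right A inf_le_left).trans hinf) hη hθ hres inf_le_right

/-- The final configuration. -/
theorem final_step {X L K P : Subgroup G} (hLK : L ≤ K) (hKX : K ≤ X)
    (hXK : X ≤ Subgroup.normalizer (K : Set G)) (hXL : X ≤ Subgroup.normalizer (L : Set G))
    (hLP : L ≤ P) (hPX : P ≤ X) (hpow : ∀ x ∈ P, ∃ a : ℕ, x ^ p ^ a ∈ L) (hidx : ¬ p ∣ P.relIndex X)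
    (hKidx : ¬ p ∣ L.relIndex K) (hXA : X ≤ Subgroup.normalizer ((K ⊔ P : Subgroup G) : Set G))
    {ν : G → ℂ} (hν : IsIrrOn L ν) (hXν : X ≤ stab ν) :
    cnt p X L ν = cnt p (X ⊓ Subgroup.normalizer (P : Set G)) L ν := by
  have hKL : K ≤ Subgroup.normalizer (L : Set G) := hKX.trans hXL
  have hPK : P ≤ Subgroup.normalizer (K : Set G) := hPX.trans hXK
  have hPL : P ≤ Subgroup.normalizer (L : Set G) := hPX.trans hXL
  set C := relFix hKL P with hCdef
  have hrel : Rel p L K C P := ⟨hLK, hLP, hKL, hPL, hPK, hKidx, hpow, fun _ => Iff.rfl⟩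
  have hinfKP : K ⊓ P = L := by
    refine le_antisymm (fun x hx => ?_) (le_inf hLK hLP)
    obtain ⟨a, ha⟩ := hpow x hx.2
    exact mem_of_pow_pair hLK hKL hKidx le_rfl hx.1 ha
  set N := X ⊓ Subgroup.normalizer (P : Set G) with hN
  have hPN : P ≤ N := le_inf hPX Subgroup.le_normalizer
  have hNX : N ≤ X := inf_le_left
  have hCN : C ≤ N := fun c hc => Subgroup.mem_inf.2 ⟨hKX hc.1, Subgroup.mem_normalizer_iff.2 fun y => by
    constructor
    · intro hy
      have := mul_mem (hLP (hc.2 y hy)) hy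
      simpa using this
    · intro hy
      have := mul_mem (hLP ((inv_mem hc : c⁻¹ ∈ C).2 _ hy)) hy
      simpa [mul_assoc] using this⟩
  have hKNC : K ⊓ N ≤ C := fun c hc => by
    refine (hrel.mem_iff c).2 ⟨hc.1, fun q hq => ?_⟩
    rw [← hinfKP]
    refine Subgroup.mem_inf.2 ⟨?_, mul_mem ((mem_conj_iff hc.2.2 q).2 hq) (inv_mem hq)⟩
    rw [show c * q * c⁻¹ * q⁻¹ = c * (q * c⁻¹ * q⁻¹) by group]
    exact mul_mem hc.1 ((mem_conj_iff (hPK hq) _).2 (inv_mem hc.1))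
  have hidxN : ¬ p ∣ P.relIndex N := fun h =>
    hidx (h.trans (Dvd.intro _ (Subgroup.relIndex_mul_relIndex P N X hPN hNX)))
  obtain ⟨R, hLR, hRN, hRP, hPR, hRidx⟩ :=
    exists_complement hLP hPN (hNX.trans hXL) inf_le_right hpow hidxN
  have hRX : R ≤ X := hRN.trans hNX
  have hRL : R ≤ Subgroup.normalizer (L : Set G) := hRX.trans hXL
  have hRK : R ≤ Subgroup.normalizer (K : Set G) := hRX.trans hXK
  have hRnP : R ≤ Subgroup.normalizer (P : Set G) := hRN.trans inf_le_right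
  have hRC : R ≤ Subgroup.normalizer (C : Set G) := fun r hr =>
    hrel.mem_normalizer_C (hRL hr) (hRK hr) (hRnP hr)
  have hCR : C ≤ R := by
    have hH : ¬ p ∣ L.relIndex (C ⊔ R) := by
      rw [← Subgroup.relIndex_mul_relIndex L C (C ⊔ R) hrel.L_le le_sup_left, relIndex_sup' hRC,
        ← Subgroup.inf_relIndex_right C R]
      exact fun h => (hp.out.dvd_mul.1 h).elim hrel.not_dvd_C fun h2 =>
        hRidx (h2.trans (Subgroup.relIndex_dvd_of_le_left R (le_inf hrel.L_le hLR)))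
    intro c hc
    obtain ⟨y, hy, r, hr, e⟩ := mem_sup' hRnP (hPR.symm ▸ hCN hc : c ∈ P ⊔ R)
    have hyH : y ∈ C ⊔ R := by
      rw [show y = c * r⁻¹ from eq_mul_inv_of_mul_eq e]
      exact mul_mem (le_sup_left (b := R) hc) (le_sup_right (a := C) (inv_mem hr))
    obtain ⟨a, ha⟩ := hpow y hy
    have hyL : y ∈ L := mem_of_pow_pair (hLR.trans le_sup_right) (sup_le (hCN.trans (hNX.trans hXL)) hRL)
      hH le_rfl hyH ha
    rw [← e]
    exact mul_mem (hLR hyL) hr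
  set A := K ⊔ P with hAdef
  set B := C ⊔ P with hBdef
  have hAX : A ≤ X := sup_le hKX hPX
  have hinfCP : C ⊓ P = L :=
    le_antisymm (hinfKP ▸ inf_le_inf_right P hrel.C_le) (le_inf hrel.L_le hLP)
  have hPC : P ≤ Subgroup.normalizer (C : Set G) := hrel.Q_norm_C
  have hXAR : A ⊔ R = X := by
    refine le_antisymm (sup_le hAX hRX) fun x hx => ?_
    obtain ⟨t, ht, hn⟩ := frattini (L := L) hXA hXL hLP le_sup_right hAX hpow hidx hx
    have hn' : t⁻¹ * x ∈ P ⊔ R := hPR.symm ▸ hn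
    have := mul_mem (le_sup_left (b := R) ht)
      (sup_le_sup_right (le_sup_right (a := K) : P ≤ A) R hn')
    rwa [mul_inv_cancel_left] at this
  have hBR : B ⊔ R = N := by
    rw [hBdef, sup_assoc, hPR, sup_eq_right.2 hCN]
  have hBN : B ≤ N := sup_le hCN hPN
  have hRA : R ≤ Subgroup.normalizer (A : Set G) := hRX.trans hXA
  have hNB : N ≤ Subgroup.normalizer (B : Set G) := fun n hn =>
    mem_normalizer_sup hPC (hrel.mem_normalizer_C (hXL hn.1) (hXK hn.1) hn.2) hn.2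
  have hRA' : R ⊓ A ≤ C := by
    intro x hx
    obtain ⟨a, ha⟩ := pow_mem_sup hLK hPK hpow x hx.2
    have hxK : x ∈ K := mem_of_pow_pair hLR hRL hRidx hLK hx.1 ha
    exact hKNC (Subgroup.mem_inf.2 ⟨hxK, hRN hx.1⟩)
  have hAidx : ¬ p ∣ A.relIndex X := fun h =>
    hidx (h.trans (Dvd.intro_left _ (Subgroup.relIndex_mul_relIndex P A X le_sup_right hAX)))
  have hBidx : ¬ p ∣ B.relIndex N := fun h =>
    hidxN (h.trans (Dvd.intro_left _ (Subgroup.relIndex_mul_relIndex P B N le_sup_right hBN)))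
  have hPν : P ≤ stab ν := hPX.trans hXν
  have hKν : K ≤ stab ν := hKX.trans hXν
  have hCν : C ≤ stab ν := hrel.C_le.trans hKν
  -- the two split formulas
  have e1 := card_mul_cnt (K := A) (P := P) (hLK.trans le_sup_left) hAX hXA hXL hLP hPX hpow hidx hν hXν
  have e2 := card_mul_cnt (K := B) (P := P) (hrel.L_le.trans le_sup_left) hBN hNB (hNX.trans hXL) hLP hPN
    hpow hidxN hν (hNX.trans hXν)
  rw [show N ⊓ Subgroup.normalizer (P : Set G) = N from inf_eq_left.2 inf_le_right] at e2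
  rw [← hN] at e1
  refine Nat.eq_of_mul_eq_mul_left (Nat.card_pos (α := N)) (e1.trans (Eq.trans ?_ e2.symm))
  -- grouping by the restriction
  have hgroup : ∀ (D : Subgroup G), L ≤ D → P ≤ Subgroup.normalizer (D : Set G) → ∀ F : (G → ℂ) → ℕ,
      ∑ η ∈ theta p (D ⊔ P) L P ν, F η = ∑ θ ∈ theta p D L P ν,
        ∑ η ∈ (irrOn (D ⊔ P)).filter (fun η => ∀ x ∈ D, η x = θ x), F η := by
    intro D hLD hPD F
    rw [← Finset.sum_fiberwise_of_maps_to (g := fun η => cut D η) (t := theta p D L P ν) (fun η hη => ?_)]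
    · refine Finset.sum_congr rfl fun θ hθ => Finset.sum_congr ?_ fun _ _ => rfl
      have hθi : IsIrrOn D θ := (mem_theta.1 hθ).1.1
      ext η
      simp only [Finset.mem_filter, mem_theta_sup_iff hLD hPD hpow, mem_irrOn]
      constructor
      · rintro ⟨⟨θ', -, hηi, -⟩, hcut⟩
        exact ⟨hηi, fun x hx => by rw [← hcut, cut_of_mem hx]⟩
      · rintro ⟨hηi, hres⟩
        refine ⟨⟨θ, hθ, hηi, hres⟩, funext fun x => ?_⟩
        by_cases hx : x ∈ D
        · rw [cut_of_mem hx, hres x hx]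
        · rw [cut, if_neg hx, hθi.2 x hx]
    · obtain ⟨θ, hθ, -, hres⟩ := (mem_theta_sup_iff hLD hPD hpow).1 hη
      have e : cut D η = θ := funext fun x => by
        by_cases hx : x ∈ D
        · rw [cut_of_mem hx, hres x hx]
        · rw [cut, if_neg hx, (mem_theta.1 hθ).1.1.2 x hx]
      show cut D η ∈ _
      rw [e]; exact hθ
  rw [hgroup K hLK hPK, hgroup C hrel.L_le hPC]
  -- the correspondence on the fixed characters
  have hex : ∀ θ ∈ theta p K L P ν, ∃ ξ, IsCorr p C P θ ξ := fun θ hθ =>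
    hrel.exists_corr (mem_theta.1 hθ).1.1 (mem_theta.1 hθ).2.1
  choose ξ hξ using hex
  refine Finset.sum_bij ξ (fun θ hθ => ?_) (fun θ hθ θ' hθ' he => ?_) (fun ζ hζ => ?_) (fun θ hθ => ?_)
  · rw [mem_theta] at hθ ⊢
    have h := hξ θ (mem_theta.2 hθ)
    exact ⟨⟨h.1, (hrel.over_iff hθ.1.1 hθ.2.1 h hν hPν).1 hθ.1.2⟩, h.2.1,
      fun hd => hθ.2.2 ((hrel.deg_dvd_iff hθ.1.1 hθ.2.1 h).2 hd)⟩
  · exact hrel.injective (mem_theta.1 hθ).1.1 (mem_theta.1 hθ).2.1 (mem_theta.1 hθ').1.1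
      (mem_theta.1 hθ').2.1 (hξ θ hθ) (he ▸ hξ θ' hθ')
  · rw [mem_theta] at hζ
    obtain ⟨θ, hθ, hs, hcorr⟩ := hrel.surjective hζ.1.1 hζ.2.1
    have hθt : θ ∈ theta p K L P ν := mem_theta.2 ⟨⟨hθ, (hrel.over_iff hθ hs hcorr hν hPν).2 hζ.1.2⟩, hs,
      fun hd => hζ.2.2 ((hrel.deg_dvd_iff hθ hs hcorr).1 hd)⟩
    exact ⟨θ, hθt, hrel.unique hθ hs (hξ θ hθt) hcorr⟩
  -- one correspondent pair
  have hcorr := hξ θ hθ
  set z := ξ θ hθ with hz
  rw [mem_theta] at hθ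
  obtain ⟨⟨hθi, hθν⟩, hθs, hθd⟩ := hθ
  have hzν := (hrel.over_iff hθi hθs hcorr hν hPν).1 hθν
  have hzd : ¬ p ∣ deg z := fun hd => hθd ((hrel.deg_dvd_iff hθi hθs hcorr).2 hd)
  have hiff : ExtTo K A θ ↔ ExtTo C B z :=
    (extTo_sup_iff hLK hLP hinfKP hKL hPL hPK hpow hθi hν hθs hKν hθd hθν).trans
      (extTo_sup_iff hrel.L_le hLP hinfCP (hrel.C_le.trans hKL) hPL hPC hpow hcorr.1 hν hcorr.2.1 hCν
        hzd hzν).symm
  by_cases hext : ExtTo K A θ
  swap
  · rw [Finset.sum_eq_zero, Finset.sum_eq_zero]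
    · intro η hη
      rw [Finset.mem_filter, mem_irrOn] at hη
      exact absurd (hiff.2 ⟨η, hη⟩) hext
    · intro η hη
      rw [Finset.mem_filter, mem_irrOn] at hη
      exact absurd ⟨η, hη⟩ hext
  set Rθ := R ⊓ stab θ with hRθdef
  have hCRθ : C ≤ Rθ := le_inf hCR (hrel.C_le.trans hθi.le_stab)
  have hRz : ∀ r ∈ R, r ∈ stab θ ↔ r ∈ stab z := by
    intro r hr
    have h2 := hrel.corr_cj hcorr (hRL hr) (hRK hr) (hRnP hr)
    constructor
    · intro h
      rw [mem_stab.1 h] at h2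
      exact mem_stab.2 (hrel.unique hθi hθs h2 hcorr)
    · intro h
      rw [mem_stab.1 h] at h2
      exact mem_stab.2 (hrel.injective (hθi.cj (hRK hr))
        (fun y hy => stab_cj (hθs ((mem_conj_iff (hRnP hr) y).2 hy))) hθi hθs h2 hcorr)
  have hRθidx : ¬ p ∣ C.relIndex Rθ := fun h => hRidx ((h.trans
    (Dvd.intro_left _ (Subgroup.relIndex_mul_relIndex L C Rθ hrel.L_le hCRθ))).trans
      (Dvd.intro _ (Subgroup.relIndex_mul_relIndex L Rθ R (hrel.L_le.trans hCRθ) inf_le_left)))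
  obtain ⟨Φ, hΦinj, hΦ, hΦs⟩ := exists_param hLP hinfKP hPK hpow (inf_le_left.trans hRnP)
    (inf_le_left.trans hRK) hCRθ (inf_le_left.trans hRC) hrel.C_le hRθidx hθi inf_le_right hext
  obtain ⟨Ψ, hΨinj, hΨ, hΨs⟩ := exists_param hLP hinfCP hPC hpow (inf_le_left.trans hRnP)
    (inf_le_left.trans hRC) hCRθ (inf_le_left.trans hRC) le_rfl hRθidx hcorr.1
    (fun r hr => (hRz r hr.1).1 hr.2) (hiff.1 hext)
  haveI := Fintype.ofFinite (Lin L P)
  rw [show (irrOn A).filter (fun η => ∀ x ∈ K, η x = θ x) = Finset.univ.image Φ by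
      ext η
      rw [Finset.mem_filter, mem_irrOn, hΦ]
      simp,
    show (irrOn B).filter (fun η => ∀ x ∈ C, η x = z x) = Finset.univ.image Ψ by
      ext η
      rw [Finset.mem_filter, mem_irrOn, hΨ]
      simp,
    Finset.sum_image hΦinj.injOn, Finset.sum_image hΨinj.injOn]
  refine Finset.sum_congr rfl fun l _ => ?_
  obtain ⟨hη, hηres⟩ := (hΦ (Φ l)).2 ⟨l, rfl⟩
  obtain ⟨hζ, hζres⟩ := (hΨ (Ψ l)).2 ⟨l, rfl⟩
  have hstabθ : ∀ r ∈ R, r ∈ stab (Φ l) → r ∈ stab θ := fun r hr h =>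
    mem_stab.2 ((hθi.cj (hRK hr)).ext hθi fun x hx => by
      rw [cj_apply, ← hηres _ ((mem_conj_iff (hRK hr) x).2 hx), ← hηres x hx]
      exact congrFun (mem_stab.1 h) x)
  have hstabz : ∀ r ∈ R, r ∈ stab (Ψ l) → r ∈ stab z := fun r hr h =>
    mem_stab.2 ((hcorr.1.cj (hRC hr)).ext hcorr.1 fun x hx => by
      rw [cj_apply, ← hζres _ ((mem_conj_iff (hRC hr) x).2 hx), ← hζres x hx]
      exact congrFun (mem_stab.1 h) x)
  have hstab : R ⊓ stab (Φ l) = R ⊓ stab (Ψ l) := by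
    refine le_antisymm (fun r hr => ?_) fun r hr => ?_
    · have h1 : r ∈ Rθ := Subgroup.mem_inf.2 ⟨hr.1, hstabθ r hr.1 hr.2⟩
      exact Subgroup.mem_inf.2 ⟨hr.1, (hΨs l r h1).2 ((hΦs l r h1).1 hr.2)⟩
    · have h1 : r ∈ Rθ := Subgroup.mem_inf.2 ⟨hr.1, (hRz r hr.1).2 (hstabz r hr.1 hr.2)⟩
      exact Subgroup.mem_inf.2 ⟨hr.1, (hΦs l r h1).2 ((hΨs l r h1).1 hr.2)⟩
  have hNs : ∀ f : G → ℂ, P ≤ stab f → N ⊓ stab f = P ⊔ R ⊓ stab f := by
    intro f hf
    refine le_antisymm (fun x hx => ?_) (sup_le (le_inf hPN hf)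
      (le_inf (inf_le_left.trans hRN) inf_le_right))
    obtain ⟨y, hy, r, hr, rfl⟩ := mem_sup' hRnP (hPR.symm ▸ hx.1 : _ ∈ P ⊔ R)
    have hrs : r ∈ stab f := by
      have := mul_mem (inv_mem (hf hy)) hx.2
      rwa [inv_mul_cancel_left] at this
    exact mul_mem (le_sup_left (b := R ⊓ stab f) hy)
      (le_sup_right (a := P) (Subgroup.mem_inf.2 ⟨hr, hrs⟩))
  have hηd : ¬ p ∣ deg (Φ l) := (mem_theta.1 ((mem_theta_sup_iff hLK hPK hpow).2
    ⟨θ, mem_theta.2 ⟨⟨hθi, hθν⟩, hθs, hθd⟩, hη, hηres⟩)).2.2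
  have hζd : ¬ p ∣ deg (Ψ l) := (mem_theta.1 ((mem_theta_sup_iff hrel.L_le hPC hpow).2
    ⟨z, mem_theta.2 ⟨⟨hcorr.1, hzν⟩, hcorr.2.1, hzd⟩, hζ, hζres⟩)).2.2
  rw [hNs _ (le_sup_right.trans hη.le_stab), hNs _ (le_sup_right.trans hζ.le_stab), ← hstab,
    cnt_term hXAR le_sup_left hRA hRK (hRA'.trans hrel.C_le) hAidx hη hθi hηres hηd,
    cnt_term hBR le_sup_left (hRN.trans hNB) hRC
      ((inf_le_inf_left R (sup_le_sup_right hrel.C_le P)).trans hRA') hBidx hζ hcorr.1 hζres hζd,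
    ← hstab]
  congr 1
  have hCη : C ≤ R ⊓ stab (Φ l) := le_inf hCR ((hrel.C_le.trans le_sup_left).trans hη.le_stab)
  rw [sup_eq_right.2 hCη]
  exact card_overIrr_corr hrel hCη (inf_le_left.trans hRL) (inf_le_left.trans hRK)
    (inf_le_left.trans hRnP)
    ((inf_le_inf inf_le_left (le_sup_left : K ≤ A)).trans hRA')
    (fun h => hRidx (h.trans (Dvd.intro _ (Subgroup.relIndex_mul_relIndex L _ R
      (hrel.L_le.trans hCη) inf_le_left))))
    hθi hθs hcorr fun r hr => hstabθ r hr.1 hr.2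

/-- **The count is local in a `p`-solvable group.** -/
theorem cnt_eq_normalizer (hG : IsPSolvable p G) :
    ∀ (n : ℕ) (X L P : Subgroup G) (ν : G → ℂ), L.relIndex X = n → L ≤ P → P ≤ X →
      X ≤ Subgroup.normalizer (L : Set G) → (∀ x ∈ P, ∃ a : ℕ, x ^ p ^ a ∈ L) →
      ¬ p ∣ P.relIndex X → IsIrrOn L ν → P ≤ stab ν →
      cnt p X L ν = cnt p (X ⊓ Subgroup.normalizer (P : Set G)) L ν := by
  intro n
  induction n using Nat.strong_induction_on with
  | _ n ih =>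
  intro X L P ν hn hLP hPX hXL hpow hidx hν hPν
  subst hn
  set N := X ⊓ Subgroup.normalizer (P : Set G) with hN
  have hPN : P ≤ N := le_inf hPX Subgroup.le_normalizer
  have hLX : L ≤ X := hLP.trans hPX
  have hNX : N ≤ X := inf_le_left
  by_cases hdν : p ∣ deg ν
  · rw [cnt_eq_zero hLX hXL hν hdν, cnt_eq_zero (hLP.trans hPN) (hNX.trans hXL) hν hdν]
  have hsmall : ∀ Y : Subgroup G, L ≤ Y → Y ≤ X → Y ≠ X → L.relIndex Y < L.relIndex X := by
    intro Y hLY hYX hne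
    rw [← Subgroup.relIndex_mul_relIndex L Y X hLY hYX]
    refine lt_mul_of_one_lt_right (Nat.pos_of_ne_zero Subgroup.index_ne_zero_of_finite) ?_
    refine lt_of_le_of_ne (Nat.one_le_iff_ne_zero.2 Subgroup.index_ne_zero_of_finite) fun h => hne ?_
    exact le_antisymm hYX (Subgroup.relIndex_eq_one.1 h.symm)
  by_cases hXν : X ≤ stab ν
  swap
  · -- the inertia group
    set T := X ⊓ stab ν with hT
    have hPT : P ≤ T := le_inf hPX hPν
    have hLT : L ≤ T := hLP.trans hPT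
    have hTidx : ¬ p ∣ P.relIndex T := fun h =>
      hidx (h.trans (Dvd.intro _ (Subgroup.relIndex_mul_relIndex P T X hPT inf_le_left)))
    have hne : T ≠ X := fun h => hXν (inf_eq_left.1 h)
    rw [cnt_inertia hLX hXL hν (fun h => hidx (h.trans
        (Dvd.intro_left _ (Subgroup.relIndex_mul_relIndex P T X hPT inf_le_left)))),
      cnt_inertia (hLP.trans hPN) (hNX.trans hXL) hν (fun h => hidx ((h.trans
        (Dvd.intro_left _ (Subgroup.relIndex_mul_relIndex P (N ⊓ stab ν) N (le_inf hPN hPν) inf_le_left))).trans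
          (Dvd.intro _ (Subgroup.relIndex_mul_relIndex P N X hPN hNX)))),
      ih _ (hsmall T hLT inf_le_left hne) T L P ν rfl hLP hPT (inf_le_left.trans hXL) hpow hTidx hν hPν,
      hN, inf_right_comm]
  by_cases hXP : X ≤ Subgroup.normalizer (P : Set G)
  · rw [hN, inf_eq_left.2 hXP]
  -- a nontrivial normal subgroup of `X ⧸ L` of `p`- or `p'`-order
  haveI : (L.subgroupOf X).Normal := (Subgroup.normal_subgroupOf_iff_le_normalizer hLX).2 hXL
  have hneX : L.subgroupOf X ≠ ⊤ := by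
    rw [Ne, Subgroup.subgroupOf_eq_top]
    exact fun h => hXP ((h.trans hLP).trans Subgroup.le_normalizer)
  set π := QuotientGroup.mk' (L.subgroupOf X) with hπ
  have hcoreK : ∀ Kb : Subgroup (X ⧸ L.subgroupOf X), Kb.Normal → Kb ≠ ⊥ →
      ∃ K : Subgroup G, L ≤ K ∧ K ≤ X ∧ X ≤ Subgroup.normalizer (K : Set G) ∧
        L.relIndex K = Nat.card Kb ∧ K.relIndex X < L.relIndex X := by
    intro Kb hKb hne
    haveI := hKb
    set K := (Kb.comap π).map X.subtype with hK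
    have hsub : K.subgroupOf X = Kb.comap π := by
      rw [hK, Subgroup.subgroupOf, Subgroup.comap_map_eq_self_of_injective Subtype.val_injective]
    have hKX : K ≤ X := Subgroup.map_subtype_le _
    have hLK : L ≤ K := fun l hl => ⟨⟨l, hLX hl⟩, by
      rw [SetLike.mem_coe, Subgroup.mem_comap, hπ, QuotientGroup.mk'_apply,
        (QuotientGroup.eq_one_iff _).2 (Subgroup.mem_subgroupOf.2 hl)]
      exact one_mem Kb, rfl⟩
    have hrel : L.relIndex K = Nat.card Kb := by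
      rw [← Subgroup.relIndex_subgroupOf hKX, hsub, PSolvable.relIndex_eq_card_map,
        Subgroup.map_comap_eq_self_of_surjective (QuotientGroup.mk'_surjective _)]
    refine ⟨K, hLK, hKX, (Subgroup.normal_subgroupOf_iff_le_normalizer hKX).1
      (by rw [hsub]; infer_instance), hrel, ?_⟩
    rw [← Subgroup.relIndex_mul_relIndex L K X hLK hKX, hrel]
    refine lt_mul_of_one_lt_left (Nat.pos_of_ne_zero Subgroup.index_ne_zero_of_finite) ?_
    exact Finite.one_lt_card_iff_nontrivial.2 ((Subgroup.nontrivial_iff_ne_bot _).2 hne)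
  rcases PSolvable.core_quotient_ne_bot (PSolvable.isPSolvable_subgroup hG X) (L.subgroupOf X) hneX
    with h | h
  · -- a `p`-group above `L`
    obtain ⟨K, hLK, hKX, hXK, hKcard, hKlt⟩ := hcoreK _ inferInstance h
    obtain ⟨a, ha⟩ := IsPGroup.iff_card.1
      (Cores.isPGroup_pCore p (X ⧸ L.subgroupOf X))
    rw [ha] at hKcard
    have hKpow : ∀ x ∈ K, x ^ p ^ a ∈ L := fun x hx => hKcard ▸
      pow_relIndex_mem hLK (hKX.trans hXL) hx
    have hKP : K ≤ P := by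
      have hpow' : ∀ x ∈ K ⊔ P, ∃ b : ℕ, x ^ p ^ b ∈ L := fun x hx => by
        obtain ⟨b, hb⟩ := pow_mem_sup hLK (hPX.trans hXK) hpow x hx
        exact ⟨b + a, by rw [pow_add, pow_mul]; exact hKpow _ hb⟩
      obtain ⟨m, hm⟩ := exists_relIndex_eq_pow (hLK.trans le_sup_left) ((sup_le hKX hPX).trans hXL) hpow'
      have h1 : P.relIndex (K ⊔ P) = 1 := by
        have h2 : P.relIndex (K ⊔ P) ∣ p ^ m :=
          hm ▸ Dvd.intro_left _ (Subgroup.relIndex_mul_relIndex L P (K ⊔ P) hLP le_sup_right)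
        obtain ⟨k, -, hk⟩ := (Nat.dvd_prime_pow hp.out).1 h2
        rw [hk]
        by_contra hne
        refine hidx ((hk ▸ dvd_pow_self p (fun h0 => hne (by rw [h0, pow_zero])) :
          p ∣ P.relIndex (K ⊔ P)).trans (Dvd.intro _
            (Subgroup.relIndex_mul_relIndex P (K ⊔ P) X le_sup_right (sup_le hKX hPX))))
      exact le_sup_left.trans (Subgroup.relIndex_eq_one.1 h1)
    refine Nat.eq_of_mul_eq_mul_left (Nat.card_pos (α := N)) ?_
    have e1 := card_mul_cnt (K := K) (P := P) hLK hKX hXK hXL hLP hPX hpow hidx hν hXν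
    have e2 := card_mul_cnt (K := K) (P := P) hLK (hKP.trans hPN) (hNX.trans hXK) (hNX.trans hXL) hLP hPN
      hpow (fun h => hidx (h.trans (Dvd.intro _ (Subgroup.relIndex_mul_relIndex P N X hPN hNX)))) hν
      (hNX.trans hXν)
    rw [show N ⊓ Subgroup.normalizer (P : Set G) = N from inf_eq_left.2 inf_le_right] at e2
    rw [← hN] at e1
    rw [e1, e2]
    refine Finset.sum_congr rfl fun θ hθ => ?_
    rw [mem_theta] at hθ
    rw [ih _ hKlt X K P θ rfl hKP hPX hXK (fun x hx => (hpow x hx).imp fun _ hb => hLK hb) hidx hθ.1.1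
      hθ.2.1]
  · -- a `p'`-group above `L`
    obtain ⟨K, hLK, hKX, hXK, hKcard, hKlt⟩ := hcoreK _ inferInstance h
    have hKidx : ¬ p ∣ L.relIndex K := by
      rw [hKcard]
      exact hp.out.coprime_iff_not_dvd.1 (Cores.card_pPrimeCore_coprime p).symm
    set N' := X ⊓ Subgroup.normalizer ((K ⊔ P : Subgroup G) : Set G) with hN'
    by_cases hXA : N' = X
    · exact final_step hLK hKX hXK hXL hLP hPX hpow hidx hKidx (inf_eq_left.1 hXA) hν hXν
    have hA : K ⊔ P ≤ X := sup_le hKX hPX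
    have hNN' : N ≤ N' := fun x hx => Subgroup.mem_inf.2 ⟨hx.1,
      mem_normalizer_sup (hPX.trans hXK) (hXK hx.1) hx.2⟩
    have hKN' : K ≤ N' := le_inf hKX (le_sup_left.trans Subgroup.le_normalizer)
    have hPN' : P ≤ N' := le_inf hPX (le_sup_right.trans Subgroup.le_normalizer)
    have hN'N : N' ⊓ Subgroup.normalizer (P : Set G) = N :=
      le_antisymm (inf_le_inf_right _ inf_le_left) (le_inf hNN' inf_le_right)
    have hN'idx : ¬ p ∣ P.relIndex N' := fun h =>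
      hidx (h.trans (Dvd.intro _ (Subgroup.relIndex_mul_relIndex P N' X hPN' inf_le_left)))
    have hstep : cnt p X L ν = cnt p N' L ν := by
      refine Nat.eq_of_mul_eq_mul_left (Nat.card_pos (α := N)) ?_
      have e1 := card_mul_cnt (K := K) (P := P) hLK hKX hXK hXL hLP hPX hpow hidx hν hXν
      have e2 := card_mul_cnt (K := K) (P := P) hLK hKN' (inf_le_left.trans hXK) (inf_le_left.trans hXL)
        hLP hPN' hpow hN'idx hν (inf_le_left.trans hXν)
      rw [hN'N] at e2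
      rw [← hN] at e1
      rw [e1, e2]
      refine Finset.sum_congr rfl fun θ hθ => ?_
      rw [mem_theta] at hθ
      rw [ih _ hKlt X K (K ⊔ P) θ rfl le_sup_left hA hXK (pow_mem_sup hLK (hPX.trans hXK) hpow)
        (fun h => hidx (h.trans (Dvd.intro_left _
          (Subgroup.relIndex_mul_relIndex P (K ⊔ P) X le_sup_right hA))))
        hθ.1.1 (sup_le hθ.1.1.le_stab hθ.2.1)]
    rw [hstep, ih _ (hsmall N' (hLP.trans hPN') inf_le_left hXA) N' L P ν rfl hLP hPN'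
      (inf_le_left.trans hXL) hpow hN'idx hν hPν, hN'N]

end

end CfsgLib.RelMcKay
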